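import Cfsg.Agent.H999.IF.EngB
import Cfsg.Agent.H209.IF.Kill
import Cfsg.Agent.KFacts.He.TwoA
import Cfsg.Agent.KFacts.He.Classes
import Cfsg.Agent.ONType.PslCard
import Cfsg.Agent.CpAutHe.Cnt

/-!
# S5719, row He, `|A|` even (helper306)

* `L_le` : `a ∈ A` implies `L = ⟨c, d, e, f, g⟩ ≤ A` (`f(a) ≤ 7`, the core of `A ∩ L` in `L`);
* `no_two_a` : `A` contains no involution of type 2A;
* `no_two_b` : nor of type 2B.
-/

set_option autoImplicit false
set_option maxRecDepth 100000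
set_option linter.unusedSectionVars false

namespace Cfsg.Agent.H306.IFHe

open MulAction Subgroup Cfsg Cfsg.Agent.H209.Fxy Cfsg.Agent.H999.IFB
open Cfsg.Spor Cfsg.Spor.He Cfsg.Agent.SporadicB.HePerm Cfsg.Agent.FixBN.HeStab
open Cfsg.Agent.KFacts.He.Lv Cfsg.Agent.KFacts.He.TwoACent Cfsg.Agent.KFacts.He.TwoAPlane
open Cfsg.Agent.CpAutHe.Cnt (pw wd_pw)

instance simple_he : IsSimpleGroup Cfsg.Spor.He := Cfsg.Agent.S1695.result.1

/-! ### the 2A involutions -/

theorem card_L : Nat.card L = 80640 := by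
  have h1 := Subgroup.card_eq_card_quotient_mul_card_subgroup (center ↥L)
  rw [Nat.card_congr quotEquiv.toEquiv, Cfsg.Agent.ONType.PslCard.card_PSL3, center_L,
    Nat.card_congr (subgroupOfEquivOfLe V_le_L).toEquiv, card_V] at h1
  rw [h1]

theorem L_le_cent : L ≤ centralizer ({gn .a} : Set Cfsg.Spor.He) := fun _ hx =>
  mem_centralizer_singleton_iff.2 (L_comm_a hx)

theorem s_notMem : s ∉ L := by
  intro h
  have h1 := L_comm_v h
  have h2 := s_conj_v
  rw [h1, mul_inv_cancel_right, mul_inv_cancel] at h2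
  exact a_ne_one h2.symm

theorem card_cent_a : 161280 ≤ Nat.card ↥(centralizer ({gn .a} : Set Cfsg.Spor.He)) := by
  obtain ⟨k, hk⟩ := card_dvd_of_le L_le_cent
  rw [card_L] at hk
  have hk0 : k ≠ 0 := by
    rintro rfl
    rw [mul_zero] at hk
    exact Nat.card_pos.ne' hk
  have hk1 : k ≠ 1 := by
    rintro rfl
    rw [mul_one] at hk
    have h1 : L = centralizer ({gn .a} : Set Cfsg.Spor.He) := eq_of_le_of_card_ge L_le_cent (by rw [hk, card_L])
    apply s_notMem
    rw [h1, mem_centralizer_singleton_iff]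
    exact s_comm_a
  rw [hk]
  omega

theorem index_cent_a : (centralizer ({gn .a} : Set Cfsg.Spor.He)).index ≤ 24990 := by
  have h1 := (centralizer ({gn .a} : Set Cfsg.Spor.He)).card_mul_index
  rw [card_he] at h1
  have h2 := card_cent_a
  by_contra hcon
  push Not at hcon
  have h3 : 161280 * 24991 ≤ Nat.card ↥(centralizer ({gn .a} : Set Cfsg.Spor.He)) *
      (centralizer ({gn .a} : Set Cfsg.Spor.He)).index := Nat.mul_le_mul h2 hcon
  omega

theorem hna : ∃ a b : Cfsg.Spor.He, a * b ≠ b * a := by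
  by_contra hcon
  push Not at hcon
  have h1 := s_notMem
  apply h1
  have h2 := hcon s v
  have h3 := s_conj_v
  rw [h2, mul_inv_cancel_right, mul_inv_cancel] at h3
  exact absurd h3.symm a_ne_one

theorem ord_a : orderOf (gn .a) = 2 := by
  refine orderOf_eq_prime ?_ a_ne_one
  rw [pow_two, gn_mul_self]

/-- the core argument -/
theorem core_index {G : Type*} [Group G] [Finite G] (H : Subgroup G) (h : H.index ≤ 7) : H.normalCore.index ≤ 5040 := by
  classical
  have hfin : Fintype (G ⧸ H) := Fintype.ofFinite _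
  rw [normalCore_eq_ker, index_ker]
  have h2 : Nat.card (MulAction.toPermHom G (G ⧸ H)).range ≤ Nat.card (Equiv.Perm (G ⧸ H)) :=
    card_le_card_group _
  refine h2.trans ?_
  rw [Nat.card_eq_fintype_card, Fintype.card_perm, ← Nat.card_eq_fintype_card]
  have h3 : Nat.card (G ⧸ H) ≤ 7 := h
  exact (Nat.factorial_le h3).trans (by decide)

/-- a large normal subgroup inside `H` -/
theorem exists_core {G : Type*} [Group G] [Finite G] {K A : Subgroup G} (h : A.relIndex K ≤ 7) :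
    ∃ N : Subgroup G, N ≤ K ∧ N ≤ A ∧ (∀ l ∈ K, ∀ n ∈ N, l * n * l⁻¹ ∈ N) ∧ Nat.card K ≤ Nat.card N * 5040 := by
  set H : Subgroup K := A.subgroupOf K with hH
  have h1 : H.normalCore.index ≤ 5040 := core_index H h
  have h2 := H.normalCore.card_mul_index
  have hcard : Nat.card (H.normalCore.map K.subtype) = Nat.card H.normalCore :=
    card_map_of_injective K.subtype_injective
  refine ⟨H.normalCore.map K.subtype, ?_, ?_, ?_, ?_⟩
  · rintro _ ⟨x, -, rfl⟩
    exact x.2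
  · rintro _ ⟨x, hx, rfl⟩
    exact H.normalCore_le hx
  · rintro l hl _ ⟨n, hn, rfl⟩
    exact ⟨⟨l, hl⟩ * n * ⟨l, hl⟩⁻¹, H.normalCore_normal.conj_mem n hn ⟨l, hl⟩, rfl⟩
  · rw [hcard, ← h2]
    exact Nat.mul_le_mul_left _ h1

theorem le_of_relIndex {A : Subgroup Cfsg.Spor.He} (h : A.relIndex L ≤ 7) : L ≤ A := by
  obtain ⟨N, hNL, hNA, hn, hc⟩ := exists_core h
  rcases Cfsg.Agent.KFacts.He.TwoA.normal_cases hNL hn with h4 | h4
  · exfalso
    have h5 : Nat.card N ≤ Nat.card V := card_le_of_le h4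
    rw [card_V] at h5
    rw [card_L] at hc
    omega
  · rw [← h4]
    exact hNA

variable {A : Subgroup Cfsg.Spor.He} {Γ : Subgroup (MulAut Cfsg.Spor.He)}

theorem L_le (h : IF A Γ) (ha : gn .a ∈ A) : L ≤ A := by
  obtain ⟨-, -, -, -, h1⟩ := IF.E2' h hna ha ord_a
  have h2 := (h1 L L_le_cent).1
  apply le_of_relIndex
  by_contra hcon
  push Not at hcon
  have h3 : 8 ^ 5 ≤ A.relIndex L ^ 5 := Nat.pow_le_pow_left hcon 5
  have h4 := index_cent_a
  omega

/-- conjugation -/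
theorem conj_mem_map (g : Cfsg.Spor.He) {x : Cfsg.Spor.He} :
    x ∈ A.map (MulAut.conj g⁻¹).toMonoidHom ↔ g * x * g⁻¹ ∈ A := by
  rw [mem_map_e]
  have h1 : (MulAut.conj g⁻¹).symm x = g * x * g⁻¹ := by
    rw [MulEquiv.symm_apply_eq, MulAut.conj_apply]
    group
  rw [h1]

theorem L_conj_le (h : IF A Γ) {g : Cfsg.Spor.He} (ha : g * gn .a * g⁻¹ ∈ A) {l : Cfsg.Spor.He} (hl : l ∈ L) :
    g * l * g⁻¹ ∈ A := by
  have h1 := h.map (MulAut.conj g⁻¹)
  exact (conj_mem_map g).1 (L_le h1 ((conj_mem_map g).2 ha) hl)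

/-- `c = g0 a g0⁻¹` -/
def g0 : List Gen := [.d, .c, .d, .f, .c, .d, .g, .b, .c, .d, .f, .e, .d, .c, .b]

def g0i : List Gen := [.b, .c, .d, .e, .f, .d, .c, .b, .g, .d, .c, .f, .d, .c, .d]

theorem c_eq : wd g0 * gn .a = gn .c * wd g0 := by
  have h := eq_of_chkB (v := g0 ++ [.a]) (w := [.c] ++ g0) (by decide +kernel)
  rwa [wd_append, wd_append, wd_one, wd_one] at h

theorem g0_inv : (wd g0)⁻¹ = wd g0i := by
  rw [inv_eq_iff_mul_eq_one, ← wd_append, ← wd_nil]
  exact eq_of_chkB (by decide +kernel)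

/-- `b` as a product of elements of `L` and `g0 L g0⁻¹` -/
theorem b_eq : gn .b = wd [.c, .d, .c, .g, .d, .c] * (wd g0 * wd [.d, .c, .d, .g] * wd g0i) *
    wd [.d, .f, .g, .d, .c, .d, .g, .f, .d] * (wd g0 * wd [.g, .d, .c, .d] * wd g0i) * wd [.c, .d, .g, .c, .d, .c] := by
  simp only [← wd_append, ← wd_one]
  exact eq_of_chkB (by decide +kernel)

theorem false_of_a (h : IF A Γ) (ha : gn .a ∈ A) : False := by
  have hL := L_le h ha
  have hg : ∀ l ∈ L, wd g0 * l * wd g0i ∈ A := by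
    intro l hl
    rw [← g0_inv]
    apply L_conj_le h _ hl
    rw [c_eq, mul_inv_cancel_right]
    exact hL (gn_mem_L (by simp))
  have hb : gn .b ∈ A := by
    rw [b_eq]
    refine A.mul_mem (A.mul_mem (A.mul_mem (A.mul_mem (hL ?_) (hg _ ?_)) (hL ?_)) (hg _ ?_)) (hL ?_) <;>
      exact wd_mem_L (by decide)
  apply h.ne_top
  rw [eq_top_iff, ← PresentedGroup.closure_range_of, closure_le]
  rintro _ ⟨m, rfl⟩
  cases m
  · exact ha
  · exact hb
  all_goals exact hL (gn_mem_L (by simp))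

/-- **No involution of type 2A.** -/
theorem no_two_a (h : IF A Γ) {g : Cfsg.Spor.He} (ha : g * gn .a * g⁻¹ ∈ A) : False :=
  false_of_a (h.map (MulAut.conj g⁻¹)) ((conj_mem_map g).2 ha)

end Cfsg.Agent.H306.IFHe
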