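import Cfsg.Agent.H306.IFHe.Even
import Cfsg.Agent.H30.OZ.HeDat

/-!
# S5719, row He, `|A|` even: the involutions of type 2B (helper306)
-/

set_option autoImplicit false
set_option maxRecDepth 100000
set_option linter.unusedSectionVars false

namespace Cfsg.Agent.H306.IFHe

open MulAction Subgroup Cfsg Cfsg.Agent.H209.Fxy Cfsg.Agent.H999.IFB
open Cfsg.Spor Cfsg.Spor.He Cfsg.Agent.SporadicB.HePerm Cfsg.Agent.FixBN.HeStab
open Cfsg.Agent.KFacts.He.Lv Cfsg.Agent.KFacts.He.TwoACent Cfsg.Agent.KFacts.He.TwoAPlane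
open Cfsg.Agent.CpAutHe.Cnt (pw wd_pw)

/-! ### an elementary abelian subgroup of order 64 -/

def eg : List (List Gen) := [[.d], [.a], [.e, .d, .c, .d, .e], [.e, .d, .g, .d, .e], [.g, .d, .c, .d, .g],
  [.c, .d, .c, .g, .d, .g, .c, .d, .c]]

theorem eg_comm : (eg.all fun v => eg.all fun w => chkB (v ++ w) (w ++ v)) = true := by decide +kernel

theorem eg_sq : (eg.all fun v => chkB (v ++ v) []) = true := by decide +kernel

def E : Subgroup Cfsg.Spor.He := closure {x | ∃ w ∈ eg, wd w = x}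

theorem E_comm {x y : Cfsg.Spor.He} (hx : x ∈ E) (hy : y ∈ E) : x * y = y * x := by
  have h0 : ∀ v ∈ eg, ∀ w ∈ eg, wd v * wd w = wd w * wd v := by
    intro v hv w hw
    have h := eg_comm
    rw [List.all_eq_true] at h
    have h1 := h v hv
    rw [List.all_eq_true] at h1
    have h2 := eq_of_chkB (h1 w hw)
    rwa [wd_append, wd_append] at h2
  have h1 : E ≤ centralizer {x | ∃ w ∈ eg, wd w = x} := by
    rw [E, closure_le]
    rintro _ ⟨v, hv, rfl⟩
    rw [SetLike.mem_coe, mem_centralizer_iff]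
    rintro _ ⟨w, hw, rfl⟩
    exact h0 w hw v hv
  have h2 : E ≤ centralizer (E : Set Cfsg.Spor.He) := by
    conv_lhs => rw [E]
    rw [closure_le]
    rintro _ ⟨v, hv, rfl⟩
    rw [SetLike.mem_coe, mem_centralizer_iff]
    intro z hz
    have h3 := mem_centralizer_iff.1 (h1 hz) (wd v) ⟨v, hv, rfl⟩
    exact h3.symm
  exact (mem_centralizer_iff.1 (h2 hy) x hx)

theorem E_sq {x : Cfsg.Spor.He} (hx : x ∈ E) : x * x = 1 := by
  have key : ∀ x, x ∈ E → x * x = 1 := by
    intro x hx
    have hx' := hx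
    rw [E] at hx'
    induction hx' using closure_induction with
    | mem x hx1 =>
      obtain ⟨w, hw, rfl⟩ := hx1
      have h := eg_sq
      rw [List.all_eq_true] at h
      have h1 := eq_of_chkB (h w hw)
      rwa [wd_append, wd_nil] at h1
    | one => exact one_mul 1
    | mul x y hx1 hy1 ihx ihy =>
      have h1 := ihx hx1
      have h2 := ihy hy1
      have h3 := E_comm hx1 hy1
      calc x * y * (x * y) = x * (y * x) * y := by group
        _ = x * (x * y) * y := by rw [h3]
        _ = (x * x) * (y * y) := by group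
        _ = 1 := by rw [h1, h2, one_mul]
    | inv x hx1 ih =>
      have h1 := ih hx1
      rw [← mul_inv_rev, h1, inv_one]
  exact key x hx

def sub : List (List Gen) → List (List Gen)
  | [] => [[]]
  | x :: l => sub l ++ (sub l).map (x ++ ·)

def sig (w : List Gen) : ℕ :=
  Nat.add (act w 0) (Nat.mul 4096 (Nat.add (act w 1) (Nat.mul 4096 (Nat.add (act w 32) (Nat.mul 4096 (act w 8))))))

theorem sub_mem : ∀ l : List (List Gen), (∀ w ∈ l, wd w ∈ E) → ∀ w ∈ sub l, wd w ∈ E := by
  intro l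
  induction l with
  | nil =>
    intro _ w hw
    rw [sub, List.mem_singleton] at hw
    rw [hw, wd_nil]
    exact E.one_mem
  | cons x l ih =>
    intro hl w hw
    have hl' : ∀ w ∈ l, wd w ∈ E := fun w hw => hl w (List.mem_cons_of_mem _ hw)
    rw [sub, List.mem_append, List.mem_map] at hw
    rcases hw with hw | ⟨v, hv, rfl⟩
    · exact ih hl' w hw
    · rw [wd_append]
      exact E.mul_mem (hl x List.mem_cons_self) (ih hl' v hv)

theorem sub_nodup : ((sub eg).map sig).Nodup := by decide +kernel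

theorem sub_length : (sub eg).length = 64 := by decide +kernel

theorem sig_eq {v w : List Gen} (h : wd v = wd w) : sig v = sig w := by
  have h1 : ∀ (i : ℕ) (_ : i < 2058), act v i = act w i := by
    intro i hi
    have h2 := phi_wd_apply v ⟨i, hi⟩
    rw [h, phi_wd_apply] at h2
    exact h2.symm
  unfold sig
  rw [h1 0 (by norm_num), h1 1 (by norm_num), h1 32 (by norm_num), h1 8 (by norm_num)]

theorem card_E : 64 ≤ Nat.card E := by
  have hmem : ∀ w ∈ sub eg, wd w ∈ E := sub_mem eg fun w hw => subset_closure ⟨w, hw, rfl⟩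
  have h1 := Nat.card_le_card_of_injective (fun i : Fin (sub eg).length =>
    (⟨wd ((sub eg).get i), hmem _ (List.get_mem _ _)⟩ : E)) (by
      intro i j hij
      have h2 : wd ((sub eg).get i) = wd ((sub eg).get j) := congrArg Subtype.val hij
      have h3 := sig_eq h2
      have h4 := List.nodup_iff_injective_get.1 sub_nodup
      have hi : (i : ℕ) < ((sub eg).map sig).length := by rw [List.length_map]; exact i.2
      have hj : (j : ℕ) < ((sub eg).map sig).length := by rw [List.length_map]; exact j.2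
      have h5 : (⟨i, hi⟩ : Fin ((sub eg).map sig).length) = ⟨j, hj⟩ := by
        apply h4
        simpa using h3
      exact Fin.ext (congrArg Fin.val h5))
  rwa [Nat.card_eq_fintype_card, Fintype.card_fin, sub_length] at h1

theorem E_le_cent : E ≤ centralizer ({wd [.d]} : Set Cfsg.Spor.He) := by
  intro x hx
  rw [mem_centralizer_singleton_iff]
  exact E_comm hx (subset_closure ⟨[.d], by simp [eg], rfl⟩)

theorem E_pow : ∃ k : ℕ, Nat.card E = 2 ^ k := by
  have h : IsPGroup 2 E := fun x => ⟨1, by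
    apply Subtype.ext
    rw [pow_one]
    show ((x ^ 2 : E) : Cfsg.Spor.He) = 1
    rw [Subgroup.coe_pow, pow_two]
    exact E_sq x.2⟩
  exact IsPGroup.iff_card.1 h

/-- `f(σ) |C_T(σ)|`-count with the elements of `E` -/
theorem pow_le {m k : ℕ} (h : m ∣ 2 ^ k) (h12 : m < 12) : m = 1 ∨ m = 2 ∨ m = 4 ∨ m = 8 := by
  obtain ⟨j, -, rfl⟩ := (Nat.dvd_prime_pow Nat.prime_two).1 h
  have hj : j < 4 := by
    by_contra hcon
    push Not at hcon
    have : 2 ^ 4 ≤ 2 ^ j := Nat.pow_le_pow_right (by norm_num) hcon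
    omega
  interval_cases j <;> simp

/-! ### elements of order seven -/

def X7 : List Gen := [.b, .f, .d, .c, .d, .f, .g, .d, .e, .c, .d, .g]
def Y7 : List Gen := [.b, .g, .d, .c, .d, .g, .f, .d, .e, .c, .d, .f]

theorem x7_pow : wd X7 ^ 7 = 1 := by
  rw [← wd_pw, ← wd_nil]
  exact eq_of_chkB (by decide +kernel)

theorem y7_pow : wd Y7 ^ 7 = 1 := by
  rw [← wd_pw, ← wd_nil]
  exact eq_of_chkB (by decide +kernel)

theorem x7_comm : wd [.d] * wd X7 = wd X7 * wd [.d] := by
  rw [← wd_append, ← wd_append]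
  exact eq_of_chkB (by decide +kernel)

theorem y7_comm : wd [.d] * wd Y7 = wd Y7 * wd [.d] := by
  rw [← wd_append, ← wd_append]
  exact eq_of_chkB (by decide +kernel)

variable {A : Subgroup Cfsg.Spor.He} {Γ : Subgroup (MulAut Cfsg.Spor.He)}

/-- an element of order seven with few cosets -/
theorem mem_of_seven {G : Type*} [Group G] [Finite G] {A : Subgroup G} {x : G} (hx : x ^ 7 = 1)
    (h : A.relIndex (zpowers x) < 7) : x ∈ A := by
  have h1 : A.relIndex (zpowers x) ∣ Nat.card (zpowers x) := (A.subgroupOf (zpowers x)).index_dvd_card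
  rw [Nat.card_zpowers] at h1
  have h2 : A.relIndex (zpowers x) ∣ 7 := h1.trans (orderOf_dvd_of_pow_eq_one hx)
  rcases (Nat.dvd_prime (by norm_num)).1 h2 with h3 | h3
  · exact (relIndex_eq_one.1 h3) (mem_zpowers x)
  · omega

/-- `y⁻¹ x² y x²` is of type 2A -/
def GU : List Gen := [.a, .b, .c, .d, .c, .d, .b, .c, .d, .f, .e, .d, .c, .b]

theorem u_eq : wd GU * gn .a = (wd Y7)⁻¹ * wd X7 ^ 2 * wd Y7 * wd X7 ^ 2 * wd GU := by
  have h1 : (wd Y7)⁻¹ = wd (pw Y7 6) := by
    rw [wd_pw, inv_eq_iff_mul_eq_one, ← pow_succ', y7_pow]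
  rw [h1, ← wd_pw, ← wd_one]
  simp only [← wd_append]
  exact eq_of_chkB (by decide +kernel)

theorem conj_injective : Function.Injective (MulAut.conj : Cfsg.Spor.He →* MulAut Cfsg.Spor.He) := by
  rw [injective_iff_map_eq_one]
  intro z hz
  apply center_of hna
  intro x
  have h3 := congrArg (fun τ : MulAut Cfsg.Spor.He => τ x) hz
  simp only [MulAut.conj_apply, MulAut.one_apply] at h3
  rwa [mul_inv_eq_iff_eq_mul] at h3

theorem index_cent_d : (centralizer ({wd [.d]} : Set Cfsg.Spor.He)).index = 187425 := by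
  have h1 := (centralizer ({wd [.d]} : Set Cfsg.Spor.He)).card_mul_index
  rw [card_he, Cfsg.Agent.H30.OZ.HeDat.centd] at h1
  omega

/-- the number of the involutions -/
theorem card_le_icl (h : IF A Γ) :
    Nat.card (A ⊓ E : Subgroup Cfsg.Spor.He) ≤ (icl (MulAut.conj (wd [.d])) ∩ (Γ : Set (MulAut Cfsg.Spor.He))).ncard + 1 := by
  have h1 : MulAut.conj '' (((A ⊓ E : Subgroup Cfsg.Spor.He) : Set Cfsg.Spor.He) \ {1}) ⊆
      icl (MulAut.conj (wd [.d])) ∩ (Γ : Set (MulAut Cfsg.Spor.He)) := by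
    rintro _ ⟨y, ⟨⟨hyA, hyE⟩, hy1⟩, rfl⟩
    refine ⟨?_, (h.conj y).2 hyA⟩
    rcases Cfsg.Agent.KFacts.He.Classes.two_classes_ad (E_sq hyE) hy1 with ⟨g, hg⟩ | ⟨g, hg⟩
    · refine ⟨g, ?_⟩
      rw [← hg, map_mul, map_mul, map_inv]
      rfl
    · exfalso
      apply no_two_a h (g := g)
      rw [show g * gn .a * g⁻¹ = y from hg]
      exact hyA
  have h2 := Set.ncard_le_ncard h1 (Set.toFinite _)
  rw [Set.ncard_image_of_injective _ conj_injective, Set.ncard_sdiff_singleton_of_mem (A ⊓ E).one_mem] at h2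
  have h3 : Nat.card (A ⊓ E : Subgroup Cfsg.Spor.He) = ((A ⊓ E : Subgroup Cfsg.Spor.He) : Set Cfsg.Spor.He).ncard := rfl
  rw [h3]
  omega

theorem card_inf (A B : Subgroup Cfsg.Spor.He) : A.relIndex B * Nat.card (A ⊓ B : Subgroup Cfsg.Spor.He) = Nat.card B := by
  rw [mul_comm, Subgroup.relIndex, ← (A.subgroupOf B).card_mul_index]
  congr 1
  rw [← Subgroup.inf_subgroupOf_right A B]
  exact (Nat.card_congr (Subgroup.subgroupOfEquivOfLe inf_le_right).toEquiv).symm

theorem false_of_d (h : IF A Γ) (hd : wd [.d] ∈ A) : False := by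
  have hσ : MulAut.conj (wd [.d]) ∈ Γ := (h.conj _).2 hd
  have hord : orderOf (wd [.d]) = 2 := Cfsg.Agent.H30.OZ.HeDat.o2
  obtain ⟨ho, hc, h5, -, -⟩ := IF.E2' h hna hd hord
  rw [index_cent_d] at hc h5
  have hE1 : ∀ {B : Subgroup Cfsg.Spor.He}, (∀ b ∈ B, wd [.d] * b = b * wd [.d]) →
      A.relIndex B ≤ fx A (MulAut.conj (wd [.d])) := fun {B} hB =>
    (IF.E1 h hσ ho (B := B) (fun b hb => by
      rw [MulAut.conj_apply, mul_inv_eq_iff_eq_mul]
      exact hB b hb)).1
  have hsmall := h.small _ hσ ho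
  obtain ⟨hfix, -⟩ := IF.fix_formula hna h hσ
  rw [hc] at hfix
  set f := fx A (MulAut.conj (wd [.d])) with hf
  set i := (icl (MulAut.conj (wd [.d])) ∩ (Γ : Set (MulAut Cfsg.Spor.He))).ncard with hi
  rcases Nat.lt_or_ge f 7 with h7 | h7
  · -- elements of order seven
    have hpow : ∀ x : Cfsg.Spor.He, wd [.d] * x = x * wd [.d] → x ^ 7 = 1 → x ∈ A := by
      intro x hx hx7
      apply mem_of_seven hx7
      refine lt_of_le_of_lt (hE1 ?_) h7
      rintro _ ⟨k, rfl⟩
      exact ((show Commute (wd [.d]) x from hx).zpow_right k).eq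
    have hX := hpow _ x7_comm x7_pow
    have hY := hpow _ y7_comm y7_pow
    apply no_two_a h (g := wd GU)
    rw [u_eq, mul_inv_cancel_right]
    exact A.mul_mem (A.mul_mem (A.mul_mem (A.inv_mem hY) (A.pow_mem hX 2)) hY) (A.pow_mem hX 2)
  · have hr : A.relIndex E ≤ f := hE1 fun b hb => (mem_centralizer_singleton_iff.1 (E_le_cent hb)).symm
    have hf11 : f < 12 := by
      by_contra hcon
      push Not at hcon
      have : 12 ^ 5 ≤ f ^ 5 := Nat.pow_le_pow_left hcon 5
      omega
    obtain ⟨k, hk⟩ := E_pow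
    have hdvd : A.relIndex E ∣ 2 ^ k := by
      rw [← hk]
      exact (A.subgroupOf E).index_dvd_card
    have hr8 := pow_le hdvd (lt_of_le_of_lt hr hf11)
    have hmul := card_inf A E
    have h64 := card_E
    have hicl := card_le_icl h
    rw [← hi] at hicl
    -- `i f ^ 5 < 187425`
    have h6 : i * f ^ 5 < 187425 := by
      rcases Nat.eq_zero_or_pos i with h0 | h0
      · rw [h0]
        norm_num
      have hfp : 0 < f := by omega
      have h8 : f * (i * f ^ 5) < f * 187425 := by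
        calc f * (i * f ^ 5) = f ^ 6 * i := by ring
          _ < A.index * i := Nat.mul_lt_mul_of_pos_right hsmall h0
          _ = f * 187425 := hfix.symm
      exact lt_of_mul_lt_mul_left h8 (Nat.zero_le _)
    rcases Nat.lt_or_ge f 8 with h8 | h8
    · have hf7 : f = 7 := by omega
      rw [hf7] at h6 hr
      have hr4 : A.relIndex E ≤ 4 := by omega
      have h9 : 16 ≤ Nat.card (A ⊓ E : Subgroup Cfsg.Spor.He) := by
        by_contra hcon
        push Not at hcon
        have : A.relIndex E * Nat.card (A ⊓ E : Subgroup Cfsg.Spor.He) ≤ 4 * 15 := Nat.mul_le_mul hr4 (by omega)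
        omega
      omega
    · have hr4 : A.relIndex E ≤ 8 := by omega
      have h9 : 8 ≤ Nat.card (A ⊓ E : Subgroup Cfsg.Spor.He) := by
        by_contra hcon
        push Not at hcon
        have : A.relIndex E * Nat.card (A ⊓ E : Subgroup Cfsg.Spor.He) ≤ 8 * 7 := Nat.mul_le_mul hr4 (by omega)
        omega
      have h10 : 7 * 8 ^ 5 ≤ i * f ^ 5 := Nat.mul_le_mul (by omega) (Nat.pow_le_pow_left h8 5)
      omega

/-- **`|A|` even** -/
theorem killE_he : KillE Cfsg.Spor.He := by
  rintro A Γ h ⟨t, htA, ht⟩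
  have h1 : t * t = 1 := by rw [← pow_two, ← ht, pow_orderOf_eq_one]
  have h2 : t ≠ 1 := by
    rintro rfl
    rw [orderOf_one] at ht
    omega
  rcases Cfsg.Agent.KFacts.He.Classes.two_classes_ad h1 h2 with ⟨g, hg⟩ | ⟨g, hg⟩
  · refine false_of_d (h.map (MulAut.conj g⁻¹)) ((conj_mem_map g).2 ?_)
    rw [show g * wd [.d] * g⁻¹ = t from hg]
    exact htA
  · apply no_two_a h (g := g)
    rw [show g * gn .a * g⁻¹ = t from hg]
    exact htA

end Cfsg.Agent.H306.IFHe
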