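import Cfsg.Agent.H546.IF.OddBase
import Cfsg.Agent.KFacts.He.InvolAut

/-!
# The Held group: `16` divides `|C(σ)|` for the outer involutory automorphisms `σ` (helper306)

* `sixteen_dvd` : `b` an involutory automorphism of `K`, `Q` normal of order 128, invariant, of even index, with at most 16
  elements `q` such that `q b(q) = 1`: then `16 ∣ |C_K(b)|`;
* `out_sixteen`.
-/

set_option autoImplicit false
set_option linter.unusedSectionVars false

namespace Cfsg.Agent.H306.IFHe

open Subgroup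

section

variable {K : Type*} [Group K] [Finite K]

/-- the elements whose coset of `Q` is fixed -/
def MM (b : K ≃* K) (Q : Subgroup K) (hQn : Q.Normal) : Subgroup K where
  carrier := {g | g⁻¹ * b g ∈ Q}
  one_mem' := by
    show (1 : K)⁻¹ * b 1 ∈ Q
    rw [map_one, inv_one, one_mul]
    exact Q.one_mem
  mul_mem' := by
    intro g h hg hh
    show (g * h)⁻¹ * b (g * h) ∈ Q
    have h1 : (g * h)⁻¹ * b (g * h) = h⁻¹ * (g⁻¹ * b g) * h⁻¹⁻¹ * (h⁻¹ * b h) := by
      rw [map_mul]
      group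
    rw [h1]
    exact Q.mul_mem (hQn.conj_mem _ hg _) hh
  inv_mem' := by
    intro g hg
    show g⁻¹⁻¹ * b g⁻¹ ∈ Q
    have h1 : g⁻¹⁻¹ * b g⁻¹ = g * (g⁻¹ * b g)⁻¹ * g⁻¹ := by
      rw [map_inv]
      group
    rw [h1]
    exact hQn.conj_mem _ (Q.inv_mem hg) _

/-- the fixed points -/
def FF (b : K ≃* K) : Subgroup K where
  carrier := {g | b g = g}
  one_mem' := map_one b
  mul_mem' := by
    intro g h hg hh
    show b (g * h) = g * h
    rw [map_mul, show b g = g from hg, show b h = h from hh]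
  inv_mem' := by
    intro g hg
    show b g⁻¹ = g⁻¹
    rw [map_inv, show b g = g from hg]

theorem FF_le (b : K ≃* K) (Q : Subgroup K) (hQn : Q.Normal) : FF b ≤ MM b Q hQn := by
  intro g hg
  show g⁻¹ * b g ∈ Q
  rw [show b g = g from hg, inv_mul_cancel]
  exact Q.one_mem

/-- `|M : C_K(b)| ≤ |X|` -/
theorem relIndex_FF (b : K ≃* K) (hb : ∀ u, b (b u) = u) (Q : Subgroup K) (hQn : Q.Normal) :
    (FF b).relIndex (MM b Q hQn) ≤ Nat.card {q : K // q ∈ Q ∧ q * b q = 1} := by
  rw [Subgroup.relIndex, Subgroup.index]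
  -- the map `g ↦ g b(g)⁻¹`
  have hmem : ∀ g ∈ MM b Q hQn, g * (b g)⁻¹ ∈ Q ∧ g * (b g)⁻¹ * b (g * (b g)⁻¹) = 1 := by
    intro g hg
    constructor
    · have h1 : g * (b g)⁻¹ = g * (g⁻¹ * b g)⁻¹ * g⁻¹ := by group
      rw [h1]
      exact hQn.conj_mem _ (Q.inv_mem hg) _
    · rw [map_mul, map_inv, hb]
      group
  let φ : (MM b Q hQn) ⧸ (FF b).subgroupOf (MM b Q hQn) → {q : K // q ∈ Q ∧ q * b q = 1} := fun c =>
    Quotient.liftOn' c (fun g : MM b Q hQn => ⟨(g : K) * (b g)⁻¹, hmem g g.2⟩) (by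
      intro g h hgh
      rw [QuotientGroup.leftRel_apply, mem_subgroupOf] at hgh
      have h1 : b ((g : K)⁻¹ * (h : K)) = (g : K)⁻¹ * h := hgh
      apply Subtype.ext
      show (g : K) * (b g)⁻¹ = h * (b h)⁻¹
      rw [map_mul, map_inv] at h1
      have h2 : b (h : K) = b g * ((g : K)⁻¹ * h) := by rw [← h1]; group
      rw [h2]
      group)
  apply Nat.card_le_card_of_injective φ
  intro c c' hcc
  induction c using QuotientGroup.induction_on with
  | H g =>
    induction c' using QuotientGroup.induction_on with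
    | H h =>
      have h1 : (g : K) * (b g)⁻¹ = h * (b h)⁻¹ := congrArg Subtype.val hcc
      rw [QuotientGroup.eq, mem_subgroupOf]
      show b ((g : K)⁻¹ * (h : K)) = (g : K)⁻¹ * h
      rw [map_mul, map_inv]
      have h2 : (b (g : K))⁻¹ = (g : K)⁻¹ * (h * (b h)⁻¹) := by rw [← h1]; group
      rw [h2]
      group

theorem even_fixed {α : Type*} [Finite α] (f : Function.End α) (hf : ∀ x, f (f x) = x) :
    Nat.card α ≡ Nat.card (Function.fixedPoints f) [MOD 2] := by
  classical
  have := Fintype.ofFinite α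
  have hp : Fact (Nat.Prime 2) := ⟨Nat.prime_two⟩
  rw [Nat.card_eq_fintype_card, Nat.card_eq_fintype_card]
  refine Equiv.Perm.card_fixedPoints_modEq (p := 2) (n := 1) (f := f) ?_
  rw [pow_one, pow_two]
  exact funext hf

/-- the number of fixed cosets is even -/
theorem two_mul_dvd (b : K ≃* K) (hb : ∀ u, b (b u) = u) (Q : Subgroup K) (hQn : Q.Normal) (hQb : ∀ q ∈ Q, b q ∈ Q)
    (hidx : 2 ∣ Q.index) : 2 * Nat.card Q ∣ Nat.card (MM b Q hQn) := by
  classical
  let f : (K ⧸ Q) → (K ⧸ Q) := fun c => Quotient.liftOn' c (fun g : K => ((b g : K) : K ⧸ Q)) (by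
    intro g h hgh
    rw [QuotientGroup.leftRel_apply] at hgh
    show ((b g : K) : K ⧸ Q) = ((b h : K) : K ⧸ Q)
    rw [QuotientGroup.eq, ← map_inv, ← map_mul]
    exact hQb _ hgh)
  have hf : ∀ g : K, f (g : K ⧸ Q) = ((b g : K) : K ⧸ Q) := fun g => rfl
  have hff : ∀ c, f (f c) = c := by
    intro c
    induction c using QuotientGroup.induction_on with
    | H g => rw [hf, hf, hb]
  have h1 : Nat.card (K ⧸ Q) ≡ Nat.card (Function.fixedPoints f) [MOD 2] := even_fixed f hff
  have h2 : 2 ∣ Nat.card (Function.fixedPoints f) := by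
    have h3 : Nat.card (K ⧸ Q) = Q.index := rfl
    rw [h3] at h1
    exact (Nat.modEq_zero_iff_dvd.1 (h1.symm.trans (Nat.modEq_zero_iff_dvd.2 hidx)))
  have h3 : Nat.card (MM b Q hQn) = Nat.card Q * Nat.card (Function.fixedPoints f) := by
    rw [← Nat.card_prod,
      ← Nat.card_congr (QuotientGroup.preimageMkEquivSubgroupProdSet Q (Function.fixedPoints f))]
    refine Nat.card_congr (Equiv.subtypeEquivRight fun g => ?_)
    show g⁻¹ * b g ∈ Q ↔ f (g : K ⧸ Q) = (g : K ⧸ Q)
    rw [hf, eq_comm, QuotientGroup.eq]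
  rw [h3, mul_comm]
  exact Nat.mul_dvd_mul_left _ h2

theorem sixteen_dvd (b : K ≃* K) (hb : ∀ u, b (b u) = u) (Q : Subgroup K) (hQn : Q.Normal) (hQb : ∀ q ∈ Q, b q ∈ Q)
    (hcQ : Nat.card Q = 128) (hidx : 2 ∣ Q.index) (hX : Nat.card {q : K // q ∈ Q ∧ q * b q = 1} ≤ 16) :
    16 ∣ Nat.card (FF b) := by
  have h1 := two_mul_dvd b hb Q hQn hQb hidx
  rw [hcQ] at h1
  have h2 := (relIndex_FF b hb Q hQn).trans hX
  have h3 : (FF b).relIndex (MM b Q hQn) * Nat.card (FF b) = Nat.card (MM b Q hQn) := by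
    rw [mul_comm, Subgroup.relIndex, ← ((FF b).subgroupOf (MM b Q hQn)).card_mul_index,
      Nat.card_congr (subgroupOfEquivOfLe (FF_le b Q hQn)).toEquiv]
  set i := (FF b).relIndex (MM b Q hQn) with hi
  have hi0 : i ≠ 0 := by
    intro h0
    rw [h0, zero_mul] at h3
    exact Nat.card_pos.ne h3
  -- the 2-part
  obtain ⟨s, m, hm, hsm⟩ := Nat.exists_eq_two_pow_mul_odd hi0
  have hs : s ≤ 4 := by
    by_contra hcon
    push Not at hcon
    have h4 : 2 ^ 5 ≤ 2 ^ s := Nat.pow_le_pow_right (by norm_num) hcon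
    have h5 : 0 < m := hm.pos
    have h6 : 2 ^ 5 * 1 ≤ 2 ^ s * m := Nat.mul_le_mul h4 h5
    omega
  rw [← h3, hsm] at h1
  have h4 : (2 : ℕ) ^ 8 ∣ 2 ^ s * (m * Nat.card (FF b)) := by
    rw [← mul_assoc]
    norm_num at h1 ⊢
    exact h1
  have h5 : (2 : ℕ) ^ (8 - s) ∣ m * Nat.card (FF b) := by
    have h6 : (2 : ℕ) ^ 8 = 2 ^ s * 2 ^ (8 - s) := by rw [← pow_add]; congr 1; omega
    rw [h6] at h4
    exact Nat.dvd_of_mul_dvd_mul_left (pow_pos (by norm_num) s) h4
  have h6 : (2 : ℕ) ^ 4 ∣ m * Nat.card (FF b) := (pow_dvd_pow 2 (by omega)).trans h5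
  have h7 : Nat.Coprime (2 ^ 4) m := Nat.Coprime.pow_left _ (Nat.coprime_two_left.2 hm)
  exact h7.dvd_of_dvd_mul_left h6

end

/-! ### the centralizer of a 2B involution -/

section CC

open Matrix Cfsg.Agent.SporadicRecognition.HeldModel Cfsg.Agent.Held.AffineIso
  Cfsg.Agent.KFacts.TwoSix.Base Cfsg.Agent.KFacts.TwoSix.Facts Cfsg.Agent.KFacts.TwoSix.Normal
  Cfsg.Agent.KFacts.TwoSix.Aut Cfsg.Agent.KFacts.TwoSix.U

/-- `QQ` in `CC` -/
def QC : Subgroup CC := QQ.subgroupOf CC

theorem QC_normal : QC.Normal := ⟨fun _ hq p => norm_QQ p.2 hq⟩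

theorem card_QC : Nat.card QC = 128 := by
  unfold QC
  rw [Nat.card_congr (Subgroup.subgroupOfEquivOfLe QQ_le_CC).toEquiv, card_QQ]

theorem index_QC : QC.index = 168 := by
  have h := QC.card_mul_index
  rw [card_QC, card_CC] at h
  omega

theorem zC_sq : zC * zC = 1 := Subtype.ext zz_sq

theorem zC_comm (g : CC) : g * zC = zC * g := Subtype.ext (zz_comm g.2)

/-- the elements `q` -/
theorem card_X (b : CC ≃* CC) (hb : ∀ u, b (b u) = u) (h : ∀ e : CC, (e : L5) ∈ R1 → ((b e : CC) : L5) ∈ R2) :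
    Nat.card {q : CC // q ∈ QC ∧ q * b q = 1} ≤ 16 := by
  have himg : bim b R1 = R2 := by
    refine eq_of_le_of_card_ge ?_ ?_
    · intro g hg
      obtain ⟨c, hc, rfl⟩ := mem_bim.1 hg
      exact h c hc
    · rw [card_bim b R1_le_CC, card_R1, card_R2]
  let G : F4 → CC := fun f => rC (Function.update f 3 0) * b (rC (Function.update f 3 0)) * (if f 3 = 1 then zC else 1)
  have hupd : ∀ f : F4, f = Function.update f 3 0 + (f 3) • (Pi.single 3 1 : F4) := by
    intro f
    funext j
    by_cases hj : j = 3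
    · subst hj
      simp
    · simp [Function.update_of_ne hj, Pi.single_eq_of_ne hj]
  have hz2 : ∀ t : ZMod 2, t = 0 ∨ t = 1 := by decide
  have hrC : ∀ f : F4, rC f * b (rC f) = rC (Function.update f 3 0) * b (rC (Function.update f 3 0)) := by
    intro f
    rcases hz2 (f 3) with h3 | h3
    · have e : Function.update f 3 0 = f := by
        funext j
        by_cases hj : j = 3
        · subst hj
          simp [h3]
        · simp [Function.update_of_ne hj]
      rw [e]
    · have e : rC f = rC (Function.update f 3 0) * zC := by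
        conv_lhs => rw [hupd f, h3, one_smul, rC_add, ← zC_eq]
      rw [e, map_mul, aut_zC]
      calc rC (Function.update f 3 0) * zC * (b (rC (Function.update f 3 0)) * zC)
          = rC (Function.update f 3 0) * (zC * b (rC (Function.update f 3 0))) * zC := by group
        _ = rC (Function.update f 3 0) * (b (rC (Function.update f 3 0)) * zC) * zC := by rw [zC_comm (b _)]
        _ = rC (Function.update f 3 0) * b (rC (Function.update f 3 0)) * (zC * zC) := by group
        _ = _ := by rw [zC_sq, mul_one]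
  have key : ∀ q : CC, q ∈ QC → q * b q = 1 → ∃ f, G f = q := by
    intro q hq hq1
    obtain ⟨a, ha, s, hs, hqe⟩ := exists_mul' (show (q : L5) ∈ QQ from hq)
    rw [← himg] at hs
    obtain ⟨e, he, hes⟩ := mem_bim.1 hs
    obtain ⟨f, rfl⟩ := mem_R1_low'.1 ha
    have hqe' : q = rC f * b e := by
      apply Subtype.ext
      rw [hqe, ← hes]
      rfl
    have h1 : rC f * b e * (b (rC f) * e) = 1 := by
      have h2 := hq1
      rw [hqe', map_mul, hb] at h2
      exact h2
    have h2 : b (e * rC f) = (rC f)⁻¹ * e⁻¹ := by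
      rw [map_mul]
      calc b e * b (rC f) = (rC f)⁻¹ * (rC f * b e * (b (rC f) * e)) * e⁻¹ := by group
        _ = (rC f)⁻¹ * e⁻¹ := by rw [h1, mul_one]
    have h3 : ((b (e * rC f) : CC) : L5) ∈ R2 := h _ (R1.mul_mem he (ro_mem_R1 f))
    have h4 : ((b (e * rC f) : CC) : L5) ∈ R1 := by
      rw [h2]
      exact R1.mul_mem (R1.inv_mem (ro_mem_R1 f)) (R1.inv_mem he)
    have h5 : e * rC f = 1 ∨ e * rC f = zC := by
      rcases inter h4 h3 with h6 | h6
      · left
        apply b.injective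
        rw [map_one]
        exact Subtype.ext h6
      · right
        apply b.injective
        rw [aut_zC]
        exact Subtype.ext h6
    have hinv : (rC f)⁻¹ = rC f := Subtype.ext (ro_inv f)
    have hf0 : ∀ t : ZMod 2, Function.update (Function.update f 3 t) 3 0 = Function.update f 3 0 := fun t =>
      Function.update_idem _ _ _
    rcases h5 with h6 | h6
    · refine ⟨Function.update f 3 0, ?_⟩
      have h7 : e = rC f := by
        rw [← hinv]
        exact eq_inv_of_mul_eq_one_left h6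
      show rC (Function.update (Function.update f 3 0) 3 0) * b (rC (Function.update (Function.update f 3 0) 3 0)) *
        (if Function.update f 3 0 3 = 1 then zC else 1) = q
      rw [hf0, Function.update_self, if_neg (by decide), mul_one, ← hrC, hqe', h7]
    · refine ⟨Function.update f 3 1, ?_⟩
      have h7 : e = rC f * zC := by
        have h8 : e = zC * (rC f)⁻¹ := by rw [← h6, mul_inv_cancel_right]
        rw [h8, hinv]
        exact (zC_comm (rC f)).symm
      have h9 : (if Function.update f 3 1 3 = 1 then zC else (1 : CC)) = zC :=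
        if_pos (Function.update_self (3 : Fin 4) (1 : ZMod 2) f)
      show rC (Function.update (Function.update f 3 1) 3 0) * b (rC (Function.update (Function.update f 3 1) 3 0)) *
        (if Function.update f 3 1 3 = 1 then zC else 1) = q
      rw [hf0, h9, ← hrC, hqe', h7, map_mul, aut_zC, mul_assoc]
  have hsurj : Function.Surjective (fun f : {f : F4 // G f ∈ QC ∧ G f * b (G f) = 1} =>
      (⟨G f, f.2⟩ : {q : CC // q ∈ QC ∧ q * b q = 1})) := by
    rintro ⟨q, hq, hq1⟩
    obtain ⟨f, hf⟩ := key q hq hq1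
    exact ⟨⟨f, by rw [hf]; exact ⟨hq, hq1⟩⟩, Subtype.ext hf⟩
  refine (Nat.card_le_card_of_surjective _ hsurj).trans ?_
  refine (Nat.card_le_card_of_injective (fun f : {f : F4 // G f ∈ QC ∧ G f * b (G f) = 1} => (f : F4))
    Subtype.val_injective).trans ?_
  simp

theorem sixteen_CC (b : CC ≃* CC) (hb : ∀ u, b (b u) = u) (h : ∀ e : CC, (e : L5) ∈ R1 → ((b e : CC) : L5) ∈ R2) :
    16 ∣ Nat.card (FF b) :=
  sixteen_dvd b hb QC QC_normal (fun _ hq => aut_QQ b hq) card_QC (by rw [index_QC]; norm_num) (card_X b hb h)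

end CC

section He

open Cfsg.Agent.SporadicRecognition.HeldModel Cfsg.Agent.KFacts.TwoSix.Aut Cfsg.Agent.KFacts.He.InvolAut
  Cfsg.Agent.OddHalf.UT5.KBasic Cfsg.Agent.H383.Cube Cfsg.Agent.H546.IFO

variable {G : Type*} [Group G] {z : G} {ι : CC →* G}

theorem out_of_hyp [Finite G] [IsSimpleGroup G] (h : SporadicRecognition.HeldModel.Hyp z ι) (α : MulAut G)
    (h2 : α * α = 1) (ho : α ∉ (MulAut.conj : G →* MulAut G).range) : 2 ^ 4 ∣ Nat.card (fix α) := by
  obtain ⟨k, hk⟩ := exists_fix_z h α h2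
  have hαα : ∀ x, α (α x) = x := fun x => by
    rw [← MulAut.mul_apply, h2]; rfl
  have e1 : ∀ x, ((MulAut.conj k)⁻¹ * α * MulAut.conj k) x = k⁻¹ * α (k * x * k⁻¹) * k := by
    intro x
    rw [MulAut.mul_apply, MulAut.mul_apply, MulAut.conj_apply, MulAut.conj_inv_apply]
  set β := (MulAut.conj k)⁻¹ * α * MulAut.conj k with hβ
  have hβz : β z = z := by
    rw [e1, hk]
    group
  have hββ : ∀ x, β (β x) = x := by
    intro x
    rw [e1, e1]
    have e2 : k * (k⁻¹ * α (k * x * k⁻¹) * k) * k⁻¹ = α (k * x * k⁻¹) := by group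
    rw [e2, hαα]
    group
  have hβo : β ∉ (MulAut.conj : G →* MulAut G).range := by
    intro h3
    apply ho
    have h4 := conj_range_normal (MulAut.conj k) h3
    have h5 : MulAut.conj k * β * (MulAut.conj k)⁻¹ = α := by rw [hβ]; group
    rwa [h5] at h4
  obtain ⟨b, hb⟩ := exists_b h β hβz
  have hbb : ∀ u, b (b u) = u := fun u => h.inj (by rw [hb, hb, hββ])
  rcases aut_cases b with h1 | h1
  · exfalso
    obtain ⟨p, hp⟩ := aut_inner b h1
    exact hβo (inner_of h (c := p) fun u => by rw [← hb, hp, map_mul, map_mul, map_inv])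
  · have h3 := sixteen_CC b hbb h1
    have hinj : Function.Injective ((MulAut.conj k).toMonoidHom.comp ι) :=
      (MulAut.conj k).injective.comp h.inj
    refine dvd_fix (B := (FF b).map ((MulAut.conj k).toMonoidHom.comp ι)) ?_ ?_
    · rintro _ ⟨u, hu, rfl⟩
      show α (k * ι u * k⁻¹) = k * ι u * k⁻¹
      have h4 : β (ι u) = ι u := by rw [← hb]; exact congrArg ι hu
      rw [e1] at h4
      calc α (k * ι u * k⁻¹) = k * (k⁻¹ * α (k * ι u * k⁻¹) * k) * k⁻¹ := by group
        _ = k * ι u * k⁻¹ := by rw [h4]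
    · rw [card_map_of_injective hinj]
      norm_num
      exact h3

theorem out_he : OutP Cfsg.Spor.He fun σ => 2 ^ 4 ∣ Nat.card (fix σ) := by
  intro σ hσ hout
  have h1 : σ * σ = 1 := by rw [← pow_two, ← hσ, pow_orderOf_eq_one]
  have : IsSimpleGroup Cfsg.Spor.He := Cfsg.Agent.S1695.result.1
  have : Finite Cfsg.Spor.He := Nat.finite_of_card_ne_zero (by rw [Cfsg.Agent.S1695.result.2]; norm_num)
  exact out_of_hyp Cfsg.Agent.KFacts.He.Hyp.hyp σ h1 (by
    rintro ⟨x, hx⟩
    exact hout x hx.symm)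

end He

end Cfsg.Agent.H306.IFHe
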