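import Cfsg.Agent.H447.IFO.Solv

/-!
# S5719, `|A|` odd: tools for small groups `A` (helper306)

* `false_of_sylow` : `A` contains no `Γ`-invariant Sylow `r`-subgroup of `T` if the elements of order `r` are real;
* `false_of_cyc` : nor a `Γ`-invariant subgroup of order `r`;
* `exists_uniq` : the unique Sylow `p`-subgroup of `A`;
* `exists_cent` : `p ^ 2` divides the order of a centraliser in a group of order `p ^ 3`.
-/

set_option autoImplicit false

namespace Cfsg.Agent.H306.IFHe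

open Subgroup Cfsg.Agent.H209.Fxy Cfsg.Agent.H447.IFO

section

variable {T : Type*} [Group T]

/-- Sylow's theorem inside a subgroup containing `P` -/
theorem exists_conj_sylow [Finite T] {p : ℕ} [Fact p.Prime] {C : Subgroup T} (P Q : Sylow p T)
    (hP : (P : Subgroup T) ≤ C) (hQ : (Q : Subgroup T) ≤ C) : ∃ a ∈ C, ∀ x : T, a * x * a⁻¹ ∈ P ↔ x ∈ Q := by
  obtain ⟨a, ha⟩ := MulAction.exists_smul_eq C (Q.subtype hQ) (P.subtype hP)
  have h1 : a • Q = P := Sylow.subtype_injective ((Sylow.smul_subtype hQ a).symm.trans ha)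
  refine ⟨a, a.2, fun x => ?_⟩
  rw [← h1]
  have h3 : (a • Q : Sylow p T) = ((MulAut.conj (a : T)) • Q : Sylow p T) := rfl
  rw [h3]
  show (a : T) * x * (a : T)⁻¹ ∈ ((MulAut.conj (a : T) • Q : Sylow p T) : Subgroup T) ↔ x ∈ Q
  rw [Sylow.pointwise_smul_def, Subgroup.mem_pointwise_smul_iff_inv_smul_mem]
  have h4 : (MulAut.conj (a : T))⁻¹ • ((a : T) * x * (a : T)⁻¹) = x := by
    rw [← MulAut.conj_apply, inv_smul_eq_iff]
    rfl
  rw [h4]
  rfl

theorem mem_smul_sylow {p : ℕ} (P : Sylow p T) (g x : T) (hx : x ∈ P) :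
    g * x * g⁻¹ ∈ (MulAut.conj g • P : Sylow p T) := by
  show g * x * g⁻¹ ∈ ((MulAut.conj g • P : Sylow p T) : Subgroup T)
  rw [Sylow.pointwise_smul_def, Subgroup.mem_pointwise_smul_iff_inv_smul_mem]
  have h4 : (MulAut.conj g)⁻¹ • (g * x * g⁻¹) = x := by
    rw [← MulAut.conj_apply, inv_smul_eq_iff]
    rfl
  rw [h4]
  exact hx

/-- a subgroup of index `p` of a `p`-group is normal -/
theorem norm_of_index [Finite T] {p n : ℕ} (hp : p.Prime) {Q P : Subgroup T} (hQP : Q ≤ P)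
    (hP : Nat.card P = p ^ (n + 1)) (hQ : Nat.card Q = p ^ n) : ∀ x ∈ P, ∀ k ∈ Q, x * k * x⁻¹ ∈ Q := by
  have h1 : (Q.subgroupOf P).index = p := by
    have h2 := (Q.subgroupOf P).card_mul_index
    rw [Nat.card_congr (subgroupOfEquivOfLe hQP).toEquiv, hP, hQ, pow_succ] at h2
    exact Nat.eq_of_mul_eq_mul_left (pow_pos hp.pos n) h2
  have h3 : (Q.subgroupOf P).Normal := by
    apply normal_of_index_eq_minFac_card
    rw [h1, hP, hp.pow_minFac (Nat.succ_ne_zero n)]
  intro x hx k hk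
  exact h3.conj_mem ⟨k, hQP hk⟩ hk ⟨x, hx⟩

/-- the unique Sylow subgroup -/
theorem exists_uniq [Finite T] {p : ℕ} (hp : p.Prime) {A : Subgroup T} {a m : ℕ} (hA : Nat.card A = p ^ a * m)
    (hpm : ¬ p ∣ m) (hm : ∀ d, d ∣ m → d % p = 1 → d = 1) :
    ∃ Q : Subgroup T, Q ≤ A ∧ Nat.card Q = p ^ a ∧ ∀ x, x ∈ Q ↔ x ∈ A ∧ ∃ k, x ^ p ^ k = 1 := by
  have hpf : Fact p.Prime := ⟨hp⟩
  obtain ⟨P⟩ : Nonempty (Sylow p A) := inferInstance
  obtain ⟨b, hb⟩ := IsPGroup.iff_card.1 P.isPGroup'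
  have hidx := P.not_dvd_index
  have h1 := (P : Subgroup A).card_mul_index
  rw [hb, hA] at h1
  have hab : b = a := by
    rcases lt_trichotomy b a with h2 | h2 | h2
    · exfalso
      apply hidx
      obtain ⟨c, rfl⟩ := Nat.exists_eq_add_of_lt h2
      have h3 : (P : Subgroup A).index = p ^ (c + 1) * m := by
        apply Nat.eq_of_mul_eq_mul_left (pow_pos hp.pos b)
        rw [h1]
        ring
      rw [h3]
      exact (dvd_pow_self p (Nat.succ_ne_zero c)).mul_right m
    · exact h2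
    · exfalso
      apply hpm
      obtain ⟨c, rfl⟩ := Nat.exists_eq_add_of_lt h2
      have h3 : m = p ^ (c + 1) * (P : Subgroup A).index := by
        apply Nat.eq_of_mul_eq_mul_left (pow_pos hp.pos a)
        rw [← h1]
        ring
      rw [h3]
      exact (dvd_pow_self p (Nat.succ_ne_zero c)).mul_right _
  subst hab
  have hidm : (P : Subgroup A).index = m := Nat.eq_of_mul_eq_mul_left (pow_pos hp.pos b) h1
  have h2 : Nat.card (Sylow p A) = 1 := by
    apply hm
    · rw [← hidm]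
      exact P.card_dvd_index
    · have h3 := card_sylow_modEq_one p A
      have h4 : 1 % p = 1 := Nat.mod_eq_of_lt hp.one_lt
      rw [Nat.ModEq, h4] at h3
      exact h3
  have hsub : Subsingleton (Sylow p A) := (Nat.card_eq_one_iff_unique.1 h2).1
  refine ⟨(P : Subgroup A).map A.subtype, ?_, ?_, ?_⟩
  · rintro _ ⟨x, -, rfl⟩
    exact x.2
  · rw [card_map_of_injective A.subtype_injective, hb]
  · intro x
    constructor
    · rintro ⟨y, hy, rfl⟩
      refine ⟨y.2, ?_⟩
      obtain ⟨k, hk⟩ := P.isPGroup' ⟨y, hy⟩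
      refine ⟨k, ?_⟩
      have h3 := congrArg (fun z : P => ((z : A) : T)) hk
      exact h3
    · rintro ⟨hxA, k, hk⟩
      have h3 : IsPGroup p (zpowers (⟨x, hxA⟩ : A)) := by
        rw [IsPGroup.iff_card]
        obtain ⟨j, -, hj⟩ := (Nat.dvd_prime_pow hp).1 (orderOf_dvd_of_pow_eq_one hk)
        refine ⟨j, ?_⟩
        rw [Nat.card_zpowers, Subgroup.orderOf_mk, hj]
      obtain ⟨Q, hQ⟩ := h3.exists_le_sylow
      rw [Subsingleton.elim Q P] at hQ
      exact ⟨⟨x, hxA⟩, hQ (mem_zpowers _), rfl⟩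

/-- a centraliser in a group of order `p ^ 3` -/
theorem exists_cent [Finite T] {p : ℕ} [hp : Fact p.Prime] (P : Sylow p T) (hP : Nat.card P = p ^ 3) {k : T}
    (hk : k ∈ P) : ∃ B : Subgroup T, B ≤ centralizer ({k} : Set T) ∧ p ^ 2 ∣ Nat.card B := by
  have hpg : IsPGroup p P := P.isPGroup'
  have hnt : Nontrivial P := by
    rw [← Finite.one_lt_card_iff_nontrivial, hP]
    exact Nat.one_lt_pow (by norm_num) hp.out.one_lt
  have h1 : Nontrivial (Subgroup.center P) := hpg.center_nontrivial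
  obtain ⟨i, hi⟩ := IsPGroup.iff_card.1 (hpg.to_subgroup (Subgroup.center P))
  have hi0 : i ≠ 0 := by
    rintro rfl
    rw [pow_zero] at hi
    exact absurd hi (Finite.one_lt_card_iff_nontrivial.2 h1).ne'
  by_cases hc : (⟨k, hk⟩ : P) ∈ Subgroup.center P
  · refine ⟨P, ?_, by rw [hP]; exact pow_dvd_pow p (by norm_num)⟩
    intro x hx
    rw [mem_centralizer_singleton_iff]
    exact congrArg Subtype.val (Subgroup.mem_center_iff.1 hc ⟨x, hx⟩)
  · set B : Subgroup P := centralizer ({(⟨k, hk⟩ : P)} : Set P) with hB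
    have hlt : Subgroup.center P < B := by
      refine lt_of_le_of_ne (center_le_centralizer _) ?_
      intro h2
      apply hc
      rw [h2, hB, mem_centralizer_singleton_iff]
    obtain ⟨j, hj⟩ := IsPGroup.iff_card.1 (hpg.to_subgroup B)
    have hij : i < j := by
      by_contra hcon
      push Not at hcon
      have h3 : Nat.card B ≤ Nat.card (Subgroup.center P) := by
        rw [hi, hj]
        exact Nat.pow_le_pow_right hp.out.pos hcon
      exact hlt.ne (eq_of_le_of_card_ge hlt.le h3)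
    refine ⟨B.map (P : Subgroup T).subtype, ?_, ?_⟩
    · rintro _ ⟨x, hx, rfl⟩
      rw [mem_centralizer_singleton_iff]
      exact congrArg Subtype.val (mem_centralizer_singleton_iff.1 hx)
    · rw [card_map_of_injective (Subtype.val_injective : Function.Injective (P : Subgroup T).subtype), hj]
      exact pow_dvd_pow p (by omega)

end

variable {T : Type*} [Group T] [Finite T] [IsSimpleGroup T] {A : Subgroup T} {Γ : Subgroup (MulAut T)}

theorem false_of_cyc (h : IF A Γ) (hodd : Odd (Nat.card A)) {r : ℕ} (hr : r.Prime) (hr2 : Odd r)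
    (hreal : ∀ x : T, orderOf x = r → ∃ g, g * x * g⁻¹ = x⁻¹) {R : Subgroup T} (hRA : R ≤ A)
    (hinv : ∀ σ ∈ Γ, ∀ x ∈ R, σ x ∈ R) (hR : Nat.card R = r) : False := by
  have hrf : Fact r.Prime := ⟨hr⟩
  obtain ⟨k, hk⟩ := exists_prime_orderOf_dvd_card' r (show r ∣ Nat.card R by rw [hR])
  have hk' : orderOf (k : T) = r := by rw [orderOf_coe, hk]
  have hRk : R = zpowers (k : T) := by
    refine (eq_of_le_of_card_ge (zpowers_le.2 k.2) ?_).symm
    rw [hR, Nat.card_zpowers, hk']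
  have hne : R ≠ ⊥ := by
    intro h1
    rw [h1, card_bot] at hR
    exact hr.one_lt.ne hR
  obtain ⟨g, hg⟩ := hreal _ hk'
  have h1 : Odd (orderOf g) := by
    refine odd_orderOf h hodd hRA hne hinv ?_
    intro x hx
    rw [hRk] at hx ⊢
    obtain ⟨m, rfl⟩ := hx
    refine ⟨-m, ?_⟩
    have h2 : (g * (k : T) * g⁻¹) ^ m = g * (k : T) ^ m * g⁻¹ := conj_zpow
    rw [hg, inv_zpow] at h2
    show (k : T) ^ (-m) = g * (k : T) ^ m * g⁻¹
    rw [← h2, zpow_neg]
  have h2 : Even (orderOf g) := even_orderOf_of_inv (x := g) (k := (k : T)) (fun h3 => by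
    rw [h3, orderOf_one] at hk'
    exact hr.one_lt.ne hk') hr2 (by rw [← hk', pow_orderOf_eq_one]) hg
  exact (Nat.not_even_iff_odd.2 h1) h2

theorem false_of_sylow (h : IF A Γ) (hodd : Odd (Nat.card A)) {r : ℕ} (hr : r.Prime) (hr2 : Odd r)
    (hreal : ∀ x : T, orderOf x = r → ∃ g, g * x * g⁻¹ = x⁻¹) {R : Subgroup T} (hRA : R ≤ A)
    (hinv : ∀ σ ∈ Γ, ∀ x ∈ R, σ x ∈ R) {a m : ℕ} (ha : a ≠ 0) (hR : Nat.card R = r ^ a)
    (hT : Nat.card T = r ^ a * m) (hm : ¬ r ∣ m) : False := by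
  have hrf : Fact r.Prime := ⟨hr⟩
  have hpg : IsPGroup r R := IsPGroup.of_card hR
  have hidx : R.index = m := by
    have h1 := R.card_mul_index
    rw [hR, hT] at h1
    exact Nat.eq_of_mul_eq_mul_left (pow_pos hr.pos a) h1
  let P : Sylow r T := hpg.toSylow (by rw [hidx]; exact hm)
  have hPR : (P : Subgroup T) = R := rfl
  have hmem : ∀ x, x ∈ P ↔ x ∈ R := fun x => Iff.rfl
  have hnt : Nontrivial R := by
    rw [← Finite.one_lt_card_iff_nontrivial, hR]
    exact Nat.one_lt_pow ha hr.one_lt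
  have hne : R ≠ ⊥ := (nontrivial_iff_ne_bot R).1 hnt
  have h1 : Nontrivial (Subgroup.center R) := hpg.center_nontrivial
  have h2 : IsPGroup r (Subgroup.center R) := hpg.to_subgroup _
  obtain ⟨n, hn⟩ := (IsPGroup.iff_card (p := r)).1 h2
  have h3 : r ∣ Nat.card (Subgroup.center R) := by
    rw [hn]
    rcases n with _ | n
    · rw [pow_zero] at hn
      exact absurd hn (Finite.one_lt_card_iff_nontrivial.2 h1).ne'
    · exact dvd_pow_self r (Nat.succ_ne_zero n)
  obtain ⟨z, hz⟩ := exists_prime_orderOf_dvd_card' r h3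
  set z0 : T := ((z : R) : T) with hz0
  have hzo : orderOf z0 = r := by rw [hz0, Subgroup.orderOf_coe, Subgroup.orderOf_coe, hz]
  have hzc : ∀ x ∈ R, x * z0 = z0 * x := fun x hx =>
    congrArg Subtype.val (Subgroup.mem_center_iff.1 z.2 ⟨x, hx⟩)
  obtain ⟨g, hg⟩ := hreal _ hzo
  have hPC : (P : Subgroup T) ≤ centralizer ({z0} : Set T) := fun x hx =>
    mem_centralizer_singleton_iff.2 (hzc x hx)
  have hQC : ((MulAut.conj g • P : Sylow r T) : Subgroup T) ≤ centralizer ({z0} : Set T) := by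
    intro x hx
    rw [Sylow.pointwise_smul_def, Subgroup.mem_pointwise_smul_iff_inv_smul_mem] at hx
    have h4 : (MulAut.conj g)⁻¹ • x = g⁻¹ * x * g := by
      rw [← map_inv, MulAut.smul_def, MulAut.conj_apply, inv_inv]
    rw [h4] at hx
    have h5 := hzc _ hx
    rw [mem_centralizer_singleton_iff]
    have h6 : x * (g * z0 * g⁻¹) = (g * z0 * g⁻¹) * x := by
      calc x * (g * z0 * g⁻¹) = g * ((g⁻¹ * x * g) * z0) * g⁻¹ := by group
        _ = g * (z0 * (g⁻¹ * x * g)) * g⁻¹ := by rw [h5]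
        _ = (g * z0 * g⁻¹) * x := by group
    rw [hg] at h6
    exact (Commute.inv_right_iff.1 (show Commute x z0⁻¹ from h6)).eq
  obtain ⟨c, hc, hcx⟩ := exists_conj_sylow P (MulAut.conj g • P : Sylow r T) hPC hQC
  rw [mem_centralizer_singleton_iff] at hc
  have h7 : Odd (orderOf (c * g)) := by
    refine odd_orderOf h hodd hRA hne hinv ?_
    intro x hx
    have h8 := (hcx (g * x * g⁻¹)).2 (mem_smul_sylow P g x hx)
    have h9 : c * (g * x * g⁻¹) * c⁻¹ = c * g * x * (c * g)⁻¹ := by group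
    rw [h9] at h8
    exact h8
  have h8 : Even (orderOf (c * g)) := even_orderOf_of_inv (x := c * g) (k := z0) (fun h3 => by
    rw [h3, orderOf_one] at hzo
    exact hr.one_lt.ne hzo) hr2 (by rw [← hzo, pow_orderOf_eq_one]) (by
    have h9 : c * z0⁻¹ * c⁻¹ = z0⁻¹ := by
      have h10 : c * z0 * c⁻¹ = z0 := by rw [hc, mul_inv_cancel_right]
      calc c * z0⁻¹ * c⁻¹ = (c * z0 * c⁻¹)⁻¹ := by group
        _ = z0⁻¹ := by rw [h10]
    calc c * g * z0 * (c * g)⁻¹ = c * (g * z0 * g⁻¹) * c⁻¹ := by group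
      _ = z0⁻¹ := by rw [hg, h9])
  exact (Nat.not_even_iff_odd.2 h7) h8

end Cfsg.Agent.H306.IFHe
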