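import Cfsg.Agent.H587.NR.He

/-!
# The Held group: the elements of orders 3, 5 and 17 are conjugate to their inverses (helper306)
-/

set_option autoImplicit false
set_option maxRecDepth 100000

namespace Cfsg.Agent.H306.IFHe

open Subgroup Cfsg
open Cfsg.Spor.He (Gen)
open Cfsg.Agent.SporadicB.HePerm (act wd phi phi_wd_apply)
open Cfsg.Agent.FixBN.HeStab Cfsg.Agent.KFacts.He.Lv Cfsg.Agent.CpAutHe.Cnt
open Cfsg.Agent.H587.NR Cfsg.Agent.H587.NR.He

/-- a nontrivial power is conjugate to its inverse -/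
def RR {G : Type*} [Group G] (x : G) : Prop := ∃ j : ℕ, x ^ j ≠ 1 ∧ ∃ g : G, g * x ^ j * g⁻¹ = (x ^ j)⁻¹

section

variable {G : Type*} [Group G]

theorem RR.of_pow {x : G} (k : ℕ) (h : RR (x ^ k)) : RR x := by
  obtain ⟨j, hj, g, hg⟩ := h
  rw [← pow_mul] at hj hg
  exact ⟨k * j, hj, g, hg⟩

theorem RR.of_conj {x : G} (u : G) (h : RR (u * x * u⁻¹)) : RR x := by
  obtain ⟨j, hj, g, hg⟩ := h
  have e : (u * x * u⁻¹) ^ j = u * x ^ j * u⁻¹ := conj_pow
  rw [e] at hj hg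
  refine ⟨j, fun h1 => hj (by rw [h1]; group), u⁻¹ * g * u, ?_⟩
  calc u⁻¹ * g * u * x ^ j * (u⁻¹ * g * u)⁻¹ = u⁻¹ * (g * (u * x ^ j * u⁻¹) * g⁻¹) * u := by group
    _ = u⁻¹ * (u * x ^ j * u⁻¹)⁻¹ * u := by rw [hg]
    _ = (x ^ j)⁻¹ := by group

theorem RR.real {p : ℕ} (hp : p.Prime) {x : G} (hx : orderOf x = p) (h : RR x) : ∃ g : G, g * x * g⁻¹ = x⁻¹ := by
  obtain ⟨j, hj, g, hg⟩ := h
  have h1 : j.Coprime (orderOf x) := by
    rw [hx, Nat.coprime_comm, hp.coprime_iff_not_dvd]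
    intro h2
    apply hj
    rw [← hx] at h2
    exact orderOf_dvd_iff_pow_eq_one.1 h2
  obtain ⟨m, hm⟩ := exists_pow_eq_self_of_coprime h1
  refine ⟨g, ?_⟩
  have h3 : g * (x ^ j) ^ m * g⁻¹ = (g * x ^ j * g⁻¹) ^ m := conj_pow.symm
  rw [hm, hg, inv_pow, hm] at h3
  exact h3

theorem conj_of_prime [Finite G] {p : ℕ} [hp : Fact p.Prime] (h2 : ¬ p ^ 2 ∣ Nat.card G) {x y : G} (hx : orderOf x = p)
    (hy : orderOf y = p) : ∃ u : G, u * x * u⁻¹ ∈ zpowers y := by
  have key : ∀ z : G, orderOf z = p → ∃ P : Sylow p G, (P : Subgroup G) = zpowers z := by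
    intro z hz
    have h1 : IsPGroup p (zpowers z) := IsPGroup.iff_card.2 ⟨1, by rw [Nat.card_zpowers, hz, pow_one]⟩
    obtain ⟨P, hP⟩ := h1.exists_le_sylow
    refine ⟨P, (eq_of_le_of_card_ge hP ?_).symm⟩
    obtain ⟨n, hn⟩ := IsPGroup.iff_card.1 P.isPGroup'
    rw [Nat.card_zpowers, hz, hn]
    have hn2 : n < 2 := by
      by_contra hcon
      push Not at hcon
      apply h2
      refine (pow_dvd_pow p hcon).trans ?_
      rw [← hn]
      exact card_subgroup_dvd_card _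
    calc p ^ n ≤ p ^ 1 := Nat.pow_le_pow_right hp.out.pos (by omega)
      _ = p := pow_one p
  obtain ⟨P, hP⟩ := key x hx
  obtain ⟨Q, hQ⟩ := key y hy
  obtain ⟨u, hu⟩ := MulAction.exists_smul_eq G P Q
  refine ⟨u, ?_⟩
  rw [← hQ, ← hu, Sylow.coe_subgroup_smul, hP]
  exact ⟨x, mem_zpowers x, rfl⟩

end

theorem rr_of {x t : List Gen} (h : chkB (t ++ x) (x.reverse ++ t) = true) (hne : chkB x [] = false) : RR (wd x) := by
  have h1 := eq_of_chkB h
  rw [wd_append, wd_append, wd_reverse] at h1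
  refine ⟨1, ?_, wd t, ?_⟩
  · rw [pow_one, ← wd_nil]
    exact ne_of_chkB hne
  · rw [pow_one, h1, mul_inv_cancel_right]

def A3 : List Gen := [.c, .f, .d, .g, .d, .c, .e, .d, .c, .g, .b, .e, .d, .g, .e, .c, .d, .c, .g, .d, .e, .b, .g, .c, .d, .e, .c, .d, .g, .d, .c, .d]

def B3 : List Gen := [.b, .e, .d, .g, .e, .c, .d, .c, .g, .d, .e, .b]

def W3 : List Gen := [.d, .f]

def W17 : List Gen := [.f, .b, .d, .c]

theorem real_three {x : Cfsg.Spor.He} (hx : orderOf x = 3) : ∃ g, g * x * g⁻¹ = x⁻¹ := by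
  refine RR.real Nat.prime_three hx ?_
  have h3 : Fact (Nat.Prime 3) := ⟨by norm_num⟩
  by_contra hng
  have r1 : wd B3 * wd A3 = wd W3 * (wd A3 * wd B3) := by
    have h1 := eq_of_chkB (show chkB (B3 ++ A3) (W3 ++ (A3 ++ B3)) = true by decide +kernel)
    rwa [wd_append, wd_append, wd_append] at h1
  have r2 : wd A3 * wd W3 = wd W3 * wd A3 := by
    have h1 := eq_of_chkB (show chkB (A3 ++ W3) (W3 ++ A3) = true by decide +kernel)
    rwa [wd_append, wd_append] at h1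
  have r3 : wd B3 * wd W3 = wd W3 * wd B3 := by
    have h1 := eq_of_chkB (show chkB (B3 ++ W3) (W3 ++ B3) = true by decide +kernel)
    rwa [wd_append, wd_append] at h1
  have r4 : wd A3 ^ 3 = 1 := by
    have h1 := eq_of_chkB (show chkB (pw A3 3) [] = true by decide +kernel)
    rwa [wd_pw, wd_nil] at h1
  have r5 : wd B3 ^ 3 = 1 := by
    have h1 := eq_of_chkB (show chkB (pw B3 3) [] = true by decide +kernel)
    rwa [wd_pw, wd_nil] at h1
  have r6 : wd W3 ^ 3 = 1 := by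
    have h1 := eq_of_chkB (show chkB (pw W3 3) [] = true by decide +kernel)
    rwa [wd_pw, wd_nil] at h1
  have r7 : wd W3 ≠ 1 := by
    rw [← wd_nil]
    exact ne_of_chkB (by decide +kernel)
  have key : ∀ j : ℕ, wd A3 * wd B3 ^ j = wd (A3 ++ pw B3 j) := by
    intro j
    rw [wd_append, wd_pw]
  rcases exists_extra (p := 3) r1 r2 r3 r4 r5 r6 r7 (by rw [card_he]; norm_num) (S := fun x => ¬ RR x)
    (fun x k h h' => h (h'.of_pow k)) (fun x u h h' => h (h'.of_conj u)) hx hng with h | h | ⟨j, hj, h⟩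
  · exact h (rr_of (t := [.d]) (by decide +kernel) (by decide +kernel))
  · exact h (rr_of (t := [.a]) (by decide +kernel) (by decide +kernel))
  · rw [key] at h
    interval_cases j
    · exact h (rr_of (t := [.e, .d, .c, .b, .a, .b, .c, .d, .e]) (by decide +kernel) (by decide +kernel))
    · exact h (rr_of (t := [.a]) (by decide +kernel) (by decide +kernel))
    · exact h (rr_of (t := [.e, .d, .g, .a, .b, .c, .d, .c, .b, .a, .b, .c, .d, .c, .b, .a, .g, .d, .e])
        (by decide +kernel) (by decide +kernel))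

theorem real_five {x : Cfsg.Spor.He} (hx : orderOf x = 5) : ∃ g, g * x * g⁻¹ = x⁻¹ := by
  refine RR.real Nat.prime_five hx ?_
  have h5 : Fact (Nat.Prime 5) := ⟨by norm_num⟩
  by_contra hng
  have r1 : wd B5 * wd A5 = wd A5 * wd B5 := by
    have h1 := eq_of_chkB (show chkB (B5 ++ A5) (A5 ++ B5) = true by decide +kernel)
    rwa [wd_append, wd_append] at h1
  have r4 : wd A5 ^ 5 = 1 := by
    have h1 := eq_of_chkB (show chkB (pw A5 5) [] = true by decide +kernel)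
    rwa [wd_pw, wd_nil] at h1
  have r5 : wd B5 ^ 5 = 1 := by
    have h1 := eq_of_chkB (show chkB (pw B5 5) [] = true by decide +kernel)
    rwa [wd_pw, wd_nil] at h1
  have r6 : wd A5 ≠ 1 := by
    rw [← wd_nil]
    exact ne_of_chkB (by decide +kernel)
  have r7 : ∀ j < 5, wd B5 ≠ wd A5 ^ j := by
    intro j hj
    rw [← wd_pw]
    apply ne_of_chkB
    interval_cases j <;> decide +kernel
  have key : ∀ j : ℕ, wd A5 * wd B5 ^ j = wd (A5 ++ pw B5 j) := by
    intro j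
    rw [wd_append, wd_pw]
  have hB : (5 : ℕ) ≠ 0 := by norm_num
  rcases exists_abel (p := 5) r1 r4 r5 r6 r7 (by rw [card_he]; norm_num) (S := fun x => ¬ RR x)
    (fun x k h h' => h (h'.of_pow k)) (fun x u h h' => h (h'.of_conj u)) hx hng with h | ⟨j, hj, h⟩
  · exact h (rr_of (t := [.e, .d, .g, .f, .b, .c, .d, .c, .b, .f, .g, .d, .e]) (by decide +kernel) (by decide +kernel))
  · rw [key] at h
    interval_cases j
    · exact h (rr_of (t := [.c]) (by decide +kernel) (by decide +kernel))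
    · exact h (rr_of (t := [.e, .d, .g, .f, .b, .c, .d, .c, .b, .f, .g, .d, .e]) (by decide +kernel) (by decide +kernel))
    · exact h (rr_of (t := [.e, .d, .g, .f, .b, .c, .d, .c, .b, .f, .g, .d, .e]) (by decide +kernel) (by decide +kernel))
    · exact h (rr_of (t := [.e, .d, .g, .f, .b, .c, .d, .c, .b, .f, .g, .d, .e]) (by decide +kernel) (by decide +kernel))
    · exact h (rr_of (t := [.g, .f, .b, .c, .d, .c, .b, .f, .g]) (by decide +kernel) (by decide +kernel))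

theorem real_seventeen {x : Cfsg.Spor.He} (hx : orderOf x = 17) : ∃ g, g * x * g⁻¹ = x⁻¹ := by
  have h17 : Fact (Nat.Prime 17) := ⟨by norm_num⟩
  have hw : orderOf (wd W17) = 17 := by
    refine orderOf_eq_prime ?_ ?_
    · have h1 := eq_of_chkB (show chkB (pw W17 17) [] = true by decide +kernel)
      rwa [wd_pw, wd_nil] at h1
    · rw [← wd_nil]
      exact ne_of_chkB (by decide +kernel)
  obtain ⟨g, hg⟩ := (rr_of (x := W17)
    (t := [.e, .c, .d, .c, .d, .a, .b, .c, .d, .c, .d, .c, .d, .c, .b, .a, .d, .c, .d, .c, .e])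
    (by decide +kernel) (by decide +kernel)).real (by norm_num) hw
  obtain ⟨u, hu⟩ := conj_of_prime (p := 17) (by rw [card_he]; norm_num) hx hw
  obtain ⟨m, hm⟩ := mem_zpowers_iff.1 hu
  refine ⟨u⁻¹ * g * u, ?_⟩
  have h1 : g * (wd W17) ^ m * g⁻¹ = ((wd W17) ^ m)⁻¹ := by
    have h2 : (g * wd W17 * g⁻¹) ^ m = g * (wd W17) ^ m * g⁻¹ := conj_zpow
    rw [← h2, hg, inv_zpow]
  rw [hm] at h1
  calc u⁻¹ * g * u * x * (u⁻¹ * g * u)⁻¹ = u⁻¹ * (g * (u * x * u⁻¹) * g⁻¹) * u := by group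
    _ = u⁻¹ * (u * x * u⁻¹)⁻¹ * u := by rw [h1]
    _ = x⁻¹ := by group

end Cfsg.Agent.H306.IFHe
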