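import Cfsg.Agent.H306.IFHe.OddGrp
import Cfsg.Agent.H306.IFHe.Real
import Cfsg.Agent.S1695

/-!
# S5719, row He: no `A` of odd order less than 240 (helper306)
-/

set_option autoImplicit false

namespace Cfsg.Agent.H306.IFHe

open Subgroup Cfsg Cfsg.Agent.H209.Fxy Cfsg.Agent.H447.IFO
open Cfsg.Agent.FixBN.HeStab

theorem simple_he' : IsSimpleGroup Cfsg.Spor.He := Cfsg.Agent.S1695.result.1

variable {A : Subgroup Cfsg.Spor.He} {Γ : Subgroup (MulAut Cfsg.Spor.He)}

/-- the elements normalising a `Γ`-invariant subgroup are in `A` -/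
theorem nrm (h : IF A Γ) {R : Subgroup Cfsg.Spor.He} (hRA : R ≤ A) (hR : R ≠ ⊥) (hinv : ∀ σ ∈ Γ, ∀ x ∈ R, σ x ∈ R)
    {x : Cfsg.Spor.He} (hx : ∀ k ∈ R, x * k * x⁻¹ ∈ R) : x ∈ A := by
  have := simple_he'
  exact Cfsg.Agent.H680.Fxy.IF.norm h hRA hinv hR hx

theorem sylow_card {p n m : ℕ} (hp : p.Prime) (hc : 4030387200 = p ^ n * m) (hm : ¬ p ∣ m)
    (P : Sylow p Cfsg.Spor.He) : Nat.card P = p ^ n := by
  have hpf : Fact p.Prime := ⟨hp⟩
  obtain ⟨b, hb⟩ := IsPGroup.iff_card.1 P.isPGroup'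
  have hidx := P.not_dvd_index
  have h1 := (P : Subgroup Cfsg.Spor.He).card_mul_index
  rw [hb, card_he, hc] at h1
  have hab : b = n := by
    rcases lt_trichotomy b n with h2 | h2 | h2
    · exfalso
      apply hidx
      obtain ⟨c, rfl⟩ := Nat.exists_eq_add_of_lt h2
      have h3 : (P : Subgroup Cfsg.Spor.He).index = p ^ (c + 1) * m := by
        apply Nat.eq_of_mul_eq_mul_left (pow_pos hp.pos b)
        rw [h1]
        ring
      rw [h3]
      exact (dvd_pow_self p (Nat.succ_ne_zero c)).mul_right m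
    · exact h2
    · exfalso
      apply hm
      obtain ⟨c, rfl⟩ := Nat.exists_eq_add_of_lt h2
      have h3 : m = p ^ (c + 1) * (P : Subgroup Cfsg.Spor.He).index := by
        apply Nat.eq_of_mul_eq_mul_left (pow_pos hp.pos n)
        rw [← h1]
        ring
      rw [h3]
      exact (dvd_pow_self p (Nat.succ_ne_zero c)).mul_right _
  rw [hb, hab]

/-- the order of an `r`-subgroup -/
theorem card_of_pow {r n m : ℕ} (hr : r.Prime) (hc : 4030387200 = r ^ n * m) (hm : ¬ r ∣ m) {R : Subgroup Cfsg.Spor.He}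
    (hR : R ≠ ⊥) (hpow : ∀ x ∈ R, x ^ r = 1) :
    ∃ j, 1 ≤ j ∧ j ≤ n ∧ Nat.card R = r ^ j ∧ ∃ P : Sylow r Cfsg.Spor.He, R ≤ P ∧ Nat.card P = r ^ n := by
  have hrf : Fact r.Prime := ⟨hr⟩
  have h1 : IsPGroup r R := fun x => ⟨1, by
    apply Subtype.ext
    rw [pow_one, Subgroup.coe_pow, hpow x x.2]
    rfl⟩
  obtain ⟨j, hj⟩ := IsPGroup.iff_card.1 h1
  obtain ⟨P, hP⟩ := h1.exists_le_sylow
  have hcP := sylow_card hr hc hm P
  refine ⟨j, ?_, ?_, hj, P, hP, hcP⟩
  · rcases Nat.eq_zero_or_pos j with h2 | h2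
    · exfalso
      apply hR
      rw [← Subgroup.card_eq_one, hj, h2, pow_zero]
    · exact h2
  · have h2 := card_dvd_of_le hP
    rw [hj, hcP] at h2
    exact (Nat.pow_dvd_pow_iff_le_right hr.one_lt).1 h2

theorem card_A_dvd (A : Subgroup Cfsg.Spor.He) : Nat.card A ∣ 4030387200 := by
  rw [← card_he]
  exact card_subgroup_dvd_card A

/-- a `Γ`-invariant subgroup of order `7` or `49` -/
theorem false_of_seven (h : IF A Γ) (hlt : Nat.card A < 240) {R : Subgroup Cfsg.Spor.He} (hRA : R ≤ A)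
    (hinv : ∀ σ ∈ Γ, ∀ x ∈ R, σ x ∈ R) (hR : Nat.card R = 7 ^ 2) : False := by
  have h7 : Fact (Nat.Prime 7) := ⟨by norm_num⟩
  have hne : R ≠ ⊥ := by
    rintro rfl
    rw [card_bot] at hR
    norm_num at hR
  obtain ⟨P, hP⟩ := (IsPGroup.of_card hR).exists_le_sylow
  have hcP : Nat.card P = 7 ^ 3 := sylow_card (by norm_num) (m := 11750400) (by norm_num) (by norm_num) P
  have h1 : (P : Subgroup Cfsg.Spor.He) ≤ A := fun x hx =>
    nrm h hRA hne hinv (norm_of_index (by norm_num) hP hcP hR x hx)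
  have h2 : Nat.card (P : Subgroup Cfsg.Spor.He) ≤ Nat.card A := card_le_of_le h1
  have h3 : Nat.card (P : Subgroup Cfsg.Spor.He) = 343 := by rw [hcP]; norm_num
  omega

theorem dvd_of_seven (h : IF A Γ) {R : Subgroup Cfsg.Spor.He} (hRA : R ≤ A)
    (hinv : ∀ σ ∈ Γ, ∀ x ∈ R, σ x ∈ R) (hR : Nat.card R = 7) : 49 ∣ Nat.card A := by
  have h7 : Fact (Nat.Prime 7) := ⟨by norm_num⟩
  have hne : R ≠ ⊥ := by
    rintro rfl
    rw [card_bot] at hR
    norm_num at hR
  obtain ⟨P, hP⟩ := (IsPGroup.of_card (n := 1) (by rw [hR, pow_one])).exists_le_sylow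
  have hcP : Nat.card P = 7 ^ 3 := sylow_card (by norm_num) (m := 11750400) (by norm_num) (by norm_num) P
  obtain ⟨k, hk⟩ := exists_prime_orderOf_dvd_card' 7 (show 7 ∣ Nat.card R by rw [hR])
  have hk' : orderOf (k : Cfsg.Spor.He) = 7 := by rw [orderOf_coe, hk]
  have hRk : R = zpowers (k : Cfsg.Spor.He) := by
    refine (eq_of_le_of_card_ge (zpowers_le.2 k.2) ?_).symm
    rw [hR, Nat.card_zpowers, hk']
  obtain ⟨B, hB, hd⟩ := exists_cent P hcP (hP k.2)
  have h1 : B ≤ A := by
    intro x hx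
    refine nrm h hRA hne hinv ?_
    intro y hy
    rw [hRk] at hy ⊢
    obtain ⟨m, rfl⟩ := hy
    have h2 : Commute x (k : Cfsg.Spor.He) := mem_centralizer_singleton_iff.1 (hB hx)
    show x * (k : Cfsg.Spor.He) ^ m * x⁻¹ ∈ _
    rw [(h2.zpow_right m).eq, mul_inv_cancel_right]
    exact zpow_mem (mem_zpowers _) m
  have h2 : (7 : ℕ) ^ 2 ∣ Nat.card A := hd.trans (card_dvd_of_le h1)
  norm_num at h2
  exact h2

/-- `Γ`-invariance of the unique Sylow subgroup -/
theorem inv_of_uniq (h : IF A Γ) {p : ℕ} {Q : Subgroup Cfsg.Spor.He}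
    (hQ : ∀ x, x ∈ Q ↔ x ∈ A ∧ ∃ k, x ^ p ^ k = 1) : ∀ σ ∈ Γ, ∀ x ∈ Q, σ x ∈ Q := by
  intro σ hσ x hx
  rw [hQ] at hx ⊢
  obtain ⟨hxA, k, hk⟩ := hx
  exact ⟨(h.inv σ hσ x).2 hxA, k, by rw [← map_pow, hk, map_one]⟩

theorem false_of_small (h : IF A Γ) (hodd : Odd (Nat.card A)) (hlt : Nat.card A < 240) : False := by
  have hs := simple_he'
  obtain ⟨r, R, hr, hr2, hRA, hR, hpow, -, hinv⟩ := exists_elemAb h hodd
  have hdA := card_A_dvd A
  have hrf : Fact r.Prime := ⟨hr⟩
  have hrd : r ∣ 4030387200 := by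
    obtain ⟨x, hx⟩ := Subgroup.ne_bot_iff_exists_ne_one.1 hR
    have h1 : orderOf x = r := orderOf_eq_prime (Subtype.ext (hpow x x.2)) hx
    have h2 : r ∣ Nat.card R := by rw [← h1]; exact orderOf_dvd_natCard x
    exact (h2.trans (card_dvd_of_le hRA)).trans hdA
  have hr' : r = 3 ∨ r = 5 ∨ r = 7 ∨ r = 17 := by
    have h1 : r ∣ 2 ^ 10 * (3 ^ 3 * (5 ^ 2 * (7 ^ 3 * 17))) := by
      norm_num
      exact hrd
    rcases hr.dvd_mul.1 h1 with h2 | h2
    · exact absurd ((Nat.prime_dvd_prime_iff_eq hr Nat.prime_two).1 (hr.dvd_of_dvd_pow h2)) hr2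
    rcases hr.dvd_mul.1 h2 with h3 | h3
    · exact Or.inl ((Nat.prime_dvd_prime_iff_eq hr Nat.prime_three).1 (hr.dvd_of_dvd_pow h3))
    rcases hr.dvd_mul.1 h3 with h4 | h4
    · exact Or.inr (Or.inl ((Nat.prime_dvd_prime_iff_eq hr Nat.prime_five).1 (hr.dvd_of_dvd_pow h4)))
    rcases hr.dvd_mul.1 h4 with h5 | h5
    · exact Or.inr (Or.inr (Or.inl ((Nat.prime_dvd_prime_iff_eq hr (by norm_num)).1 (hr.dvd_of_dvd_pow h5))))
    · exact Or.inr (Or.inr (Or.inr ((Nat.prime_dvd_prime_iff_eq hr (by norm_num)).1 h5)))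
  rcases hr' with rfl | rfl | rfl | rfl
  · -- r = 3
    obtain ⟨j, hj1, hj3, hcR, P, hRP, hcP⟩ := card_of_pow (n := 3) (m := 149273600) hr (by norm_num) (by norm_num) hR hpow
    rcases Nat.eq_or_lt_of_le hj1 with h1 | h1
    · exact false_of_cyc h hodd hr (by decide) (fun x hx => real_three hx) hRA hinv (by rw [hcR, ← h1, pow_one])
    have hPA : (P : Subgroup Cfsg.Spor.He) ≤ A := by
      rcases Nat.eq_or_lt_of_le hj3 with h2 | h2
      · have h3 : R = P := eq_of_le_of_card_ge hRP (by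
          rw [hcR, h2]
          exact hcP.le)
        rw [← h3]
        exact hRA
      · have h3 : j = 2 := by omega
        exact fun x hx => nrm h hRA hR hinv (norm_of_index hr hRP hcP (by rw [hcR, h3]) x hx)
    have hd : 27 ∣ Nat.card A := by
      have h2 := card_dvd_of_le hPA
      rw [hcP] at h2
      norm_num at h2
      exact h2
    obtain ⟨m, hm⟩ := hd
    have hm9 : m < 9 := by omega
    have hmodd : Odd m := by
      rw [hm] at hodd
      exact (Nat.odd_mul.1 hodd).2
    have hmd : 27 * m ∣ 4030387200 := by rw [← hm]; exact hdA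
    have hm' : m = 1 ∨ m = 5 ∨ m = 7 := by
      interval_cases m
      · exact absurd hmodd (by decide)
      · exact Or.inl rfl
      · exact absurd hmodd (by decide)
      · exact absurd hmd (by norm_num)
      · exact absurd hmodd (by decide)
      · exact Or.inr (Or.inl rfl)
      · exact absurd hmodd (by decide)
      · exact Or.inr (Or.inr rfl)
      · exact absurd hmodd (by decide)
    have key : (¬ 3 ∣ m ∧ ∀ d, d ∣ m → d % 3 = 1 → d = 1) → False := by
      rintro ⟨hk1, hk2⟩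
      obtain ⟨Q, hQA, hcQ, hQ⟩ := exists_uniq (p := 3) (a := 3) hr (by rw [hm]; norm_num) hk1 hk2
      exact false_of_sylow h hodd hr (by decide) (fun x hx => real_three hx) hQA (inv_of_uniq h hQ) (a := 3)
        (m := 149273600) (by norm_num) hcQ (by rw [card_he]; norm_num) (by norm_num)
    rcases hm' with rfl | rfl | rfl
    · apply key
      refine ⟨by norm_num, ?_⟩
      intro d hd hd1
      exact Nat.dvd_one.1 hd
    · apply key
      refine ⟨by norm_num, ?_⟩
      intro d hd hd1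
      rcases (Nat.dvd_prime Nat.prime_five).1 hd with rfl | rfl
      · rfl
      · norm_num at hd1
    · obtain ⟨Q, hQA, hcQ, hQ⟩ := exists_uniq (p := 7) (a := 1) (m := 27) (by norm_num) (by rw [hm]; norm_num) (by norm_num) (by
        intro d hd hd1
        have h27 : d ∣ 3 ^ 3 := by norm_num; exact hd
        obtain ⟨i, hi, rfl⟩ := (Nat.dvd_prime_pow Nat.prime_three).1 h27
        interval_cases i
        · rfl
        · norm_num at hd1
        · norm_num at hd1
        · norm_num at hd1)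
      have h1 := dvd_of_seven h hQA (inv_of_uniq h hQ) (by rw [hcQ, pow_one])
      rw [hm] at h1
      norm_num at h1
  · -- r = 5
    obtain ⟨j, hj1, hj3, hcR, -⟩ := card_of_pow (n := 2) (m := 161215488) hr (by norm_num) (by norm_num) hR hpow
    rcases Nat.eq_or_lt_of_le hj1 with h1 | h1
    · exact false_of_cyc h hodd hr (by decide) (fun x hx => real_five hx) hRA hinv (by rw [hcR, ← h1, pow_one])
    · have h2 : j = 2 := by omega
      exact false_of_sylow h hodd hr (by decide) (fun x hx => real_five hx) hRA hinv (a := 2) (m := 161215488)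
        (by norm_num) (by rw [hcR, h2]) (by rw [card_he]; norm_num) (by norm_num)
  · -- r = 7
    obtain ⟨j, hj1, hj3, hcR, P, hRP, hcP⟩ := card_of_pow (n := 3) (m := 11750400) hr (by norm_num) (by norm_num) hR hpow
    have hcle : Nat.card R ≤ Nat.card A := card_le_of_le hRA
    have hj2 : j < 3 := by
      by_contra hcon
      have h1 : j = 3 := by omega
      rw [hcR, h1] at hcle
      norm_num at hcle
      omega
    have hj12 : j = 1 ∨ j = 2 := by omega
    rcases hj12 with rfl | rfl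
    · obtain ⟨m, hm⟩ := dvd_of_seven h hRA hinv (by rw [hcR, pow_one])
      have hm9 : m < 5 := by omega
      have hmodd : Odd m := by
        rw [hm] at hodd
        exact (Nat.odd_mul.1 hodd).2
      have hm' : m = 1 ∨ m = 3 := by
        interval_cases m
        · exact absurd hmodd (by decide)
        · exact Or.inl rfl
        · exact absurd hmodd (by decide)
        · exact Or.inr rfl
        · exact absurd hmodd (by decide)
      obtain ⟨Q, hQA, hcQ, hQ⟩ := exists_uniq (p := 7) (a := 2) (m := m) hr (by rw [hm]; norm_num) (by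
        rcases hm' with rfl | rfl <;> norm_num) (by
        intro d hd hd1
        rcases hm' with rfl | rfl
        · exact Nat.dvd_one.1 hd
        · rcases (Nat.dvd_prime Nat.prime_three).1 hd with rfl | rfl
          · rfl
          · norm_num at hd1)
      exact false_of_seven h hlt hQA (inv_of_uniq h hQ) hcQ
    · exact false_of_seven h hlt hRA hinv hcR
  · -- r = 17
    obtain ⟨j, hj1, hj3, hcR, -⟩ := card_of_pow (n := 1) (m := 237081600) hr (by norm_num) (by norm_num) hR hpow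
    have h1 : j = 1 := by omega
    exact false_of_cyc h hodd hr (by decide) (fun x hx => real_seventeen hx) hRA hinv (by rw [hcR, h1, pow_one])

end Cfsg.Agent.H306.IFHe
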