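import Cfsg.Agent.H306.IFHe.EvenB
import Cfsg.Agent.H306.IFHe.OddSmall
import Cfsg.Agent.H306.IFHe.FixSixteen

/-!
# S5719: the row He (helper306)

`|A|` even: `Even.lean`, `EvenB.lean`.  `|A|` odd: `16 ∣ |C_T(σ)|` gives `|A| < 240`, and `A` is a local subgroup.
-/

set_option autoImplicit false

namespace Cfsg.Agent.H306.IFHe

open Cfsg Cfsg.Agent.H209.Fxy Cfsg.Agent.H546.IFO Cfsg.Agent.FixBN.HeStab

/-- **`|A|` odd** -/
theorem killO_he : KillO Cfsg.Spor.He := by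
  intro A Γ h hodd
  obtain ⟨σ, -, h2, hout, -, hk, -, hlt⟩ := exists_outer hna h hodd
  have h16 := hk 4 (out_he σ h2 hout)
  apply false_of_small h hodd
  rw [card_he] at hlt
  have h3 : (2 ^ 4) ^ 6 ≤ fx A σ ^ 6 := Nat.pow_le_pow_left h16 6
  have e : ((2 : ℕ) ^ 4) ^ 6 = 16777216 := by norm_num
  rw [e] at h3
  have h4 : 16777216 * Nat.card A ≤ fx A σ ^ 6 * Nat.card A := Nat.mul_le_mul_right _ h3
  obtain ⟨m, hm⟩ := hodd
  omega

theorem kill_he : Kill Cfsg.Spor.He := Kill.of killE_he killO_he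

/-- **The row He of S5719** -/
theorem rowHe : Row fun T => Spor.IsoHe T := by
  rintro T _ _ _ - ⟨e⟩ A Γ hA
  exact Kill.congr e.symm kill_he A Γ hA

end Cfsg.Agent.H306.IFHe
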